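import Cfsg.Agent.H241.Own.UBTwo
import Cfsg.Agent.H243.EP.OwnExc

/-!
# S3499: the exceptional socles over the field with two elements, dimension at least 13 (helper241)

`two_f4`, `two_e6`, `two_e7`, `two_e8`, `two_2e6`, `two_3d4` (no order bound as a hypothesis).
-/

set_option autoImplicit false
set_option linter.unusedSectionVars false
set_option linter.style.haveILetI false

namespace Cfsg.Agent.H241.Own

open Matrix (SpecialLinearGroup)
open Cfsg.Agent.H911.SLTwo Cfsg.Agent.H875.Fn Cfsg.Agent.H744.Ppd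
open CoxeterSystem Cfsg.Agent.ChevalleyStructure.CoxeterGeom Cfsg.Agent.Tits.Roots Cfsg.Agent.Tits.Core
  Cfsg.Agent.Tits.Exchange Cfsg.Agent.Nodes.Reps Cfsg.Agent.Nodes.BNOf Cfsg.Agent.Nodes.StabComb
  Cfsg.Agent.Nodes.Bruhat Cfsg.Agent.Nodes.OppDec Cfsg.Agent.Nodes.LeviDec Cfsg.Agent.KFacts.RgdOpp
  Cfsg.Agent.Omega.CR Cfsg.Agent.Omega.FOne.Lift.Sd Cfsg.Agent.H905.Md Cfsg.Agent.H650.Ppd

/-! ### two strings and two more vectors -/

section two

variable {E : Type*} [Field E] [Fintype E] {k : Type*} [Field k] {j : E →+* k} {V : Type*} [AddCommGroup V] [Module k V]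
  {R : SpecialLinearGroup (Fin 2) E →* Module.End k V}

theorem emb_eq_zero {φ : Module.Dual k V} (lo : ∀ t x, φ (R (Lo t) x) = φ x) {v : V} (h : ∀ g, φ (R g v) = 0) :
    emb R φ v = 0 := by
  funext x
  by_cases hx : x = 0
  · rw [hx, emb_zero]; rfl
  · obtain ⟨g, rfl⟩ := exists_row x hx
    rw [emb_row lo, h]; rfl

variable (p : ℕ) [hp : Fact p.Prime] [CharP k p]

include hp in
/-- two orthogonal strings and two vectors orthogonal to them -/
theorem dim_two_ker {φ₁ φ₂ : Module.Dual k V} {v₁ v₂ : V} {c : ℕ} (H₁ : Str j R φ₁ v₁ c) (H₂ : Str j R φ₂ v₂ c)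
    (h12 : φ₁ v₂ = 0) (h12' : φ₁ (R ww v₂) = 0) (h21 : φ₂ v₁ = 0) (h21' : φ₂ (R ww v₁) = 0)
    [FiniteDimensional k V] {x : Fin 2 → V} (hx : LinearIndependent k x) (h1 : ∀ i g, φ₁ (R g (x i)) = 0)
    (h2 : ∀ i g, φ₂ (R g (x i)) = 0) : 2 * (SS p c).card + 2 ≤ Module.finrank k V := by
  have e12 : emb R φ₁ v₂ = 0 := emb_eq_zero H₁.lo (row_zero H₁.lo H₂.up (fun s => ⟨_, H₂.tor s⟩) h12 h12')
  have e21 : emb R φ₂ v₁ = 0 := emb_eq_zero H₂.lo (row_zero H₂.lo H₁.up (fun s => ⟨_, H₁.tor s⟩) h21 h21')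
  set Ψ : V →ₗ[k] (E × E → k) × (E × E → k) := (emb R φ₁).prod (emb R φ₂) with hΨ
  have k1 : L j c ≤ (LinearMap.range Ψ).comap (LinearMap.inl k (E × E → k) (E × E → k)) := by
    rw [L_eq_span j p H₁.le, Submodule.span_le]
    rintro _ ⟨m, hm, rfl⟩
    refine mono_mem_span_Lo j p H₁.le (fun t => ?_) hm
    rw [Submodule.mem_comap, LinearMap.inl_apply]
    refine ⟨(φ₁ v₁)⁻¹ • R (Lo t) v₁, ?_⟩
    rw [map_smul]
    refine Prod.ext ?_ ?_
    · change (φ₁ v₁)⁻¹ • emb R φ₁ (R (Lo t) v₁) = _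
      rw [emb_act H₁.lo, H₁.emb_eq, map_smul, smul_smul, inv_mul_cancel₀ H₁.ne, one_smul]
    · change (φ₁ v₁)⁻¹ • emb R φ₂ (R (Lo t) v₁) = _
      rw [emb_act H₂.lo, e21, map_zero, smul_zero]
  have k2 : L j c ≤ (LinearMap.range Ψ).comap (LinearMap.inr k (E × E → k) (E × E → k)) := by
    rw [L_eq_span j p H₂.le, Submodule.span_le]
    rintro _ ⟨m, hm, rfl⟩
    refine mono_mem_span_Lo j p H₂.le (fun t => ?_) hm
    rw [Submodule.mem_comap, LinearMap.inr_apply]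
    refine ⟨(φ₂ v₂)⁻¹ • R (Lo t) v₂, ?_⟩
    rw [map_smul]
    refine Prod.ext ?_ ?_
    · change (φ₂ v₂)⁻¹ • emb R φ₁ (R (Lo t) v₂) = _
      rw [emb_act H₁.lo, e12, map_zero, smul_zero]
    · change (φ₂ v₂)⁻¹ • emb R φ₂ (R (Lo t) v₂) = _
      rw [emb_act H₂.lo, H₂.emb_eq, map_smul, smul_smul, inv_mul_cancel₀ H₂.ne, one_smul]
  have k3 : LinearMap.range ((L j c).subtype.prodMap (L j c).subtype) ≤ LinearMap.range Ψ := by
    rintro _ ⟨⟨f, g⟩, rfl⟩
    have h1 : ((f : E × E → k), (0 : E × E → k)) ∈ LinearMap.range Ψ := k1 f.2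
    have h2 : ((0 : E × E → k), (g : E × E → k)) ∈ LinearMap.range Ψ := k2 g.2
    have h3 := Submodule.add_mem _ h1 h2
    rwa [Prod.mk_add_mk, add_zero, zero_add] at h3
  have k4 := Submodule.finrank_mono k3
  rw [LinearMap.finrank_range_of_inj (Function.Injective.prodMap (Submodule.subtype_injective _)
    (Submodule.subtype_injective _)), Module.finrank_prod, finrank_L j p H₁.le] at k4
  -- the kernel
  have k5 : ∀ i, x i ∈ LinearMap.ker Ψ := fun i => by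
    rw [LinearMap.mem_ker]
    refine Prod.ext ?_ ?_
    · exact emb_eq_zero H₁.lo (h1 i)
    · exact emb_eq_zero H₂.lo (h2 i)
  have k6 : LinearIndependent k fun i : Fin 2 => (⟨x i, k5 i⟩ : LinearMap.ker Ψ) :=
    LinearIndependent.of_comp (LinearMap.ker Ψ).subtype hx
  have k7 := k6.fintype_card_le_finrank
  rw [Fintype.card_fin] at k7
  have k8 := LinearMap.finrank_range_add_finrank_ker Ψ
  omega

end two

/-! ### `³D₄(2)` : the vertices -/

section hx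

variable {W Y : Type*} [Group W] [Group Y] {cs : CoxeterSystem CoxeterMatrix.G₂ W} {A : Fin 2 → Fin 2 → ℤ}
  {h : IsCartan CoxeterMatrix.G₂ A} {p : ℕ} {T : Subgroup Y} {n : Fin 2 → Y} {X : (Fin 2 → ℤ) → Subgroup Y}
  {K E : Type*} [Field K] [Field E] {k V : Type*} [Field k] [AddCommGroup V] [Module k V]
  {R : RGD cs h p T n X} {s l : Fin 2} {ss : SpecialLinearGroup (Fin 2) K →* Y}
  {sl : SpecialLinearGroup (Fin 2) E →* Y} {ε : E →+* K} {N : Kˣ → Eˣ} {f : ℕ} [Finite Y] [Finite W] [Fact p.Prime]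
  [CharP k p] {ρ : Y →* Module.End k V} [FiniteDimensional k V] [Nontrivial V]

variable (R s l) in
/-- `g` represents the vertex with coordinates `α, β` -/
def Vx (g : Y) (α β : ℤ) : Prop := ∃ w : W, Rp cs R.nsys w g ∧
  ∀ x : Fin 2 → ℤ, rep cs h w⁻¹ x l = α * x s + β * x l

theorem Vx.one : Vx R s l (1 : Y) 0 1 :=
  ⟨1, rp_one, fun x => by rw [inv_one, map_one, Module.End.one_apply]; ring⟩

variable (H : Hx R s l ss sl ε N f)
include H

theorem Vx.st {g : Y} {α β : ℤ} (hg : Vx R s l g α β) : Vx R s l (ss ww * g) (-α) (3 * α + β) := by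
  obtain ⟨w, hw, hx⟩ := hg
  exact ⟨_, H.ws.mul hw, fun x => by
    rw [mul_inv_rev, inv_simple, rep_mul_apply, hx, (H.rep_s x).1, (H.rep_s x).2]; ring⟩

theorem Vx.lt {g : Y} {α β : ℤ} (hg : Vx R s l g α β) : Vx R s l (sl ww * g) (α + β) (-β) := by
  obtain ⟨w, hw, hx⟩ := hg
  exact ⟨_, H.wl.mul hw, fun x => by
    rw [mul_inv_rev, inv_simple, rep_mul_apply, hx, (H.rep_l x).1, (H.rep_l x).2]; ring⟩

variable (hirr : ∀ L : Submodule k V, Ivt ρ (GG cs h T X) L → L = ⊥ ∨ L = ⊤)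
  {v₀ : V} (hv₀ : v₀ ∈ D cs h X ρ) {φ₀ : Module.Dual k V} (hφ₀ : φ₀ ∈ fx (dualRep ρ) (UN cs h X)) (hne : φ₀ v₀ ≠ 0)

include hirr hv₀ hφ₀

theorem Vx.pair (hl : l ∉ Jx cs h X ρ) {g g' : Y} {α β α' β' : ℤ} (hg : Vx R s l g α β) (hg' : Vx R s l g' α' β')
    (hab : ¬ (α = α' ∧ β = β')) : φ₀ (ρ g⁻¹ (ρ g' v₀)) = 0 := by
  obtain ⟨w, hw, hx⟩ := hg
  obtain ⟨w', hw', hx'⟩ := hg'
  by_contra h2
  rw [← rho_mul] at h2
  have h3 := mem_WJ_of_pair R hirr hφ₀ (hw.inv.mul hw') hv₀ h2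
  have h4 : ∀ x : Fin 2 → ℤ, rep cs h w⁻¹ x l = rep cs h w'⁻¹ x l := by
    intro x
    have h5 := coord_of_mem_WJ (h := h) h3 (rep cs h w'⁻¹ x) hl
    rwa [← rep_mul_apply, mul_inv_cancel_right] at h5
  have e1 := h4 (sr s)
  have e2 := h4 (sr l)
  rw [hx, hx', sr_self, sr_ne (Ne.symm H.ne)] at e1
  rw [hx, hx', sr_self, sr_ne H.ne] at e2
  exact hab ⟨by linarith, by linarith⟩

omit [Finite Y] [Finite W] [Fact p.Prime] [CharP k p] [FiniteDimensional k V] [Nontrivial V] H hirr hφ₀ in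
theorem up_of {w : W} {g : Y} (N' : Nd T X s ss) (hg : Rp cs R.nsys w g) (hpos : 0 ≤ rep cs h w⁻¹ (sr s)) (t : K) :
    ρ (ss (U t)) (ρ g v₀) = ρ g v₀ := by
  have hroot : IsRoot cs h (rep cs h w⁻¹ (sr s)) := (isRoot_sr cs h s).act _
  have h3 := R.conj_mem' hg (isRoot_sr cs h s) ((N'.up _).2 ⟨t, rfl⟩)
  have h4 : ρ (g⁻¹ * ss (U t) * g) v₀ = v₀ := hv₀ _ (RGD.le_Sup (S := RGD.Pos cs h) ⟨hroot, hpos⟩ h3)
  have e : ss (U t) * g = g * (g⁻¹ * ss (U t) * g) := by group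
  rw [← rho_mul, e, rho_mul, h4]

/-- the representatives of the vertices -/
local notation "g1" => (sl ww : Y)
local notation "g3" => (sl ww * (ss ww * sl ww) : Y)
local notation "g5" => (sl ww * (ss ww * (sl ww * (ss ww * sl ww))) : Y)

include hne

/-- **two strings and two vertices** -/
theorem dim_strings' [Fintype K] (hl : l ∉ Jx cs h X ρ) (j : K →+* k) {c : ℕ} (h1 : 1 ≤ c) (h2 : c ≤ Fintype.card K - 1)
    (ht0 : ∀ t : Kˣ, ∃ a : k, ρ (ss (hh t)) v₀ = a • v₀)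
    (ht1 : ∀ t : Kˣ, ρ (ss (hh t)) (ρ g1 v₀) = j (t : K) ^ c • ρ g1 v₀)
    (ht3 : ∀ t : Kˣ, ρ (ss (hh t)) (ρ g3 v₀) = j (t : K) ^ c • ρ g3 v₀)
    (ht5 : ∀ t : Kˣ, ∃ a : k, ρ (ss (hh t)) (ρ g5 v₀) = a • ρ g5 v₀) :
    2 * (SS p c).card + 2 ≤ Module.finrank k V := by
  have H₁ := H.str_sl hirr hv₀ hφ₀ hne hl j h1 h2 ht1
  have H₂ := str_four H hirr hv₀ hφ₀ hne hl j h1 h2 ht3
  have V0 : Vx R s l (1 : Y) 0 1 := Vx.one
  have V1 : Vx R s l g1 1 (-1) := by simpa using V0.lt H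
  have V2 : Vx R s l (ss ww * g1) (-1) 2 := by simpa using V1.st H
  have V3 : Vx R s l g3 1 (-2) := by simpa using V2.lt H
  have V4 : Vx R s l (ss ww * g3) (-1) 1 := by simpa using V3.st H
  have V5 : Vx R s l g5 0 (-1) := by simpa using V4.lt H
  have V0' : Vx R s l (ss ww * 1) 0 1 := by simpa using V0.st H
  have V5' : Vx R s l (ss ww * g5) 0 (-1) := by simpa using V5.st H
  have P := fun {g g' : Y} {α β α' β' : ℤ} (hg : Vx R s l g α β) (hg' : Vx R s l g' α' β')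
    (hab : ¬ (α = α' ∧ β = β')) => Vx.pair H hirr hv₀ hφ₀ hl hg hg' hab
  have hv5 : ρ g5 v₀ ≠ 0 := Cfsg.Agent.Omega.CR.rho_ne_zero ρ _ (fun h0 => hne (by rw [h0, map_zero]))
  have u0 : ∀ t, (ρ.comp ss) (U t) v₀ = v₀ := fun t => by
    rw [MonoidHom.comp_apply]
    have h3 := up_of (R := R) (ρ := ρ) hv₀ H.Ns (rp_one (cs := cs) (hN := R.nsys)) (by
      rw [inv_one, map_one]; exact sr_nonneg s) t
    rwa [map_one] at h3
  have u5 : ∀ t, (ρ.comp ss) (U t) (ρ g5 v₀) = ρ g5 v₀ := fun t => by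
    rw [MonoidHom.comp_apply]
    refine up_of (R := R) (ρ := ρ) hv₀ H.Ns (H.wl.mul (H.ws.mul (H.wl.mul (H.ws.mul H.wl)))) ?_ t
    intro i
    simp only [mul_inv_rev, inv_simple, rep_mul_apply]
    rcases H.cases i with rfl | rfl
    · simp only [(H.rep_l _).1, (H.rep_l _).2, (H.rep_s _).1, (H.rep_s _).2, sr_self, sr_ne (Ne.symm H.ne)]
      norm_num
    · simp only [(H.rep_l _).1, (H.rep_l _).2, (H.rep_s _).1, (H.rep_s _).2, sr_self, sr_ne (Ne.symm H.ne)]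
      norm_num
  have li : LinearIndependent k ![v₀, ρ g5 v₀] := by
    rw [LinearIndependent.pair_iff]
    intro a b hab
    have hp : φ₀ (ρ g5 v₀) = 0 := by
      have := P V0 V5 (by norm_num)
      rwa [inv_one, map_one] at this
    have ha : a = 0 := by
      have h3 := congrArg φ₀ hab
      rw [map_add, map_smul, map_smul, map_zero, hp, smul_zero, add_zero, smul_eq_mul] at h3
      exact (mul_eq_zero.1 h3).resolve_right hne
    refine ⟨ha, ?_⟩
    rw [ha, zero_smul, zero_add] at hab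
    exact (smul_eq_zero.1 hab).resolve_right hv5
  refine dim_two_ker p H₁ H₂ ?_ ?_ ?_ ?_ li ?_ ?_
  · rw [dualRep_apply]
    exact P V1 V3 (by norm_num)
  · rw [dualRep_apply, MonoidHom.comp_apply, ← rho_mul ρ (ss ww)]
    exact P V1 V4 (by norm_num)
  · rw [dualRep_apply]
    exact P V3 V1 (by norm_num)
  · rw [dualRep_apply, MonoidHom.comp_apply, ← rho_mul ρ (ss ww)]
    exact P V3 V2 (by norm_num)
  · intro i
    fin_cases i
    · refine row_zero H₁.lo u0 ht0 ?_ ?_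
      · rw [dualRep_apply]
        have := P V1 V0 (by norm_num)
        rwa [map_one] at this
      · rw [dualRep_apply, MonoidHom.comp_apply]
        have := P V1 V0' (by norm_num)
        rwa [mul_one] at this
    · refine row_zero H₁.lo u5 ht5 ?_ ?_
      · rw [dualRep_apply]
        exact P V1 V5 (by norm_num)
      · rw [dualRep_apply, MonoidHom.comp_apply]
        have := P V1 V5' (by norm_num)
        rwa [rho_mul ρ (ss ww)] at this
  · intro i
    fin_cases i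
    · refine row_zero H₂.lo u0 ht0 ?_ ?_
      · rw [dualRep_apply]
        have := P V3 V0 (by norm_num)
        rwa [map_one] at this
      · rw [dualRep_apply, MonoidHom.comp_apply]
        have := P V3 V0' (by norm_num)
        rwa [mul_one] at this
    · refine row_zero H₂.lo u5 ht5 ?_ ?_
      · rw [dualRep_apply]
        exact P V3 V5 (by norm_num)
      · rw [dualRep_apply, MonoidHom.comp_apply]
        have := P V3 V5' (by norm_num)
        rwa [rho_mul ρ (ss ww)] at this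

end hx

/-! ### `³D₄` -/

section d4

open Cfsg Cfsg.Geo
open Cfsg.Agent.H911 (lin)
open Cfsg.Lie Cfsg.Agent.ChevalleyStructure Cfsg.Agent.ChevalleyStructure.CoxeterGeomTypes
open Cfsg.Agent.Nodes.RGDTwD4 (isCartan)
open Cfsg.Agent.Nodes.RGDFoldSL (Fx mem_Fx)
open Cfsg.Agent.H744.Ppd.D4

universe u

/-- the Coxeter system -/
local notation "cs4" => CoxeterMatrix.toCoxeterSystem CoxeterMatrix.G₂

variable {F : Type u} [Field F] [Finite F] {ι : Type} [Fintype ι] [DecidableEq ι] [Nonempty ι]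
  {P : Subgroup (Matrix.GeneralLinearGroup ι F)}
  (p : ℕ) [hp : Fact p.Prime] [CharP F p] {K : Type} [Field K] [Fintype K] [CharP K p] {q : ℕ} {φ : K →+* K}
  (hK : Fintype.card K = q ^ 3) (hφ : ∀ x, φ x = x ^ q)
  {θ : ↥(twistedD4 K q) →* Matrix.GeneralLinearGroup ι F} (hθ : θ.range = P)
  (hP : ActsAbsolutelyIrreducibly (matrixSet P))

/-- the root groups -/
local notation "Jn" => Jx cs4 isCartan (Nodes.RGDTwD4.X φ q) (lin (acRep θ))

include p hK hφ hθ hP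

/-- **the long node alone** -/
theorem long_two' (hq : 1 < q) (h1 : (1 : Fin 2) ∈ Jn) (h0 : (0 : Fin 2) ∉ Jn) {a j : ℕ} (hj : j ≠ 0)
    (hF : Nat.card F = p ^ a) (hE : q = p ^ (a * j)) : 2 * 8 ^ j + 2 ≤ Fintype.card ι := by
  have : Finite CoxeterMatrix.G₂.Group := Cfsg.Agent.H249.PPTwD4.finiteW cs4
  have i1 := Fintype.ofFinite (Fx φ 1)
  have i3 := Fintype.ofFinite (Fx φ 3)
  have c1 : Fintype.card (Fx φ 1) = q := by rw [← Nat.card_eq_fintype_card]; exact card_Fx1 hq hK hφ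
  have c3 : Fintype.card (Fx φ 3) = q ^ 3 := by rw [← Nat.card_eq_fintype_card]; exact card_Fx3 hK hφ
  have hchar : CharP (AlgebraicClosure F) p := charP_of_injective_algebraMap (algebraMap F _).injective p
  have R := Nodes.RGDTwD4.rgd (K := K) cs4 hK hφ p
  have H := hx_d4 hK hφ cs4 p
  have hirr := ac_irr R (GG4 hK hφ) Cfsg.Agent.H249.PPTwD4.T_comm hθ hP
  have hfin : Module.finrank (AlgebraicClosure F) (ι → AlgebraicClosure F) = Fintype.card ι :=
    Module.finrank_fintype_fun_eq_card _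
  obtain ⟨c, hc, hc0, χ, hχ⟩ := exists_chi R hirr Cfsg.Agent.H249.PPTwD4.T_comm
  obtain ⟨ι₀⟩ := Cfsg.Agent.H875.Psl2.exists_emb F (Fx φ 3) p
  have hgcd : Nat.gcd a (a * j) = a := Nat.gcd_eq_left (Dvd.intro j rfl)
  obtain ⟨r₀, hr0, hrlt, hr, -⟩ := edge_data R (GG4 hK hφ) Cfsg.Agent.H249.PPTwD4.T_comm hθ hP
    (nd_sl hK hφ cs4 p) h0 hF (by rw [card_Fx1 hq hK hφ]; exact hE) (s := j) (by rw [hgcd, mul_comm])
    (ι₀.comp (incl φ)) hc hc0 hχ
  rw [hgcd] at hrlt hr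
  obtain ⟨φ₀, hφ₀, hne⟩ := exists_pair_D R hirr hc hc0
  have hQ1 : 1 ≤ p ^ a := Nat.one_le_pow _ _ hp.out.pos
  have hqj : q = (p ^ a) ^ j := by rw [hE, pow_mul]
  set b : ℕ := r₀ * ∑ l ∈ Finset.range j, (p ^ a) ^ l with hb
  set cS : ℕ := r₀ * ∑ l ∈ Finset.range (3 * j), (p ^ a) ^ l with hcS
  have hbc : cS = (1 + q + q ^ 2) * b := by
    rw [hcS, hb, ← geom_split, hqj]
    ring
  have htor0 : ∀ t : (Fx φ 1)ˣ, lin (acRep θ) (sl hK hφ (hh t)) c = ι₀ (incl φ (t : Fx φ 1)) ^ b • c := fun t => by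
    rw [hχ _ ((nd_sl hK hφ cs4 p).tor t), hr t]
    rfl
  have h3 : IsOcc (lin (acRep θ)) (ss hK hφ) (sl hK hφ) (incl φ) ι₀ c 0 (b : ℤ) :=
    ⟨fun t => by rw [fix_J H.Ns h1 hc, zpow_zero, one_smul], fun t => by rw [htor0, zpow_natCast]⟩
  have h4 := h3.refl_l H.two
  have h5 := (h4.refl_s H.two).refl_l H.two
  have h5' := (h5.refl_s H.two).refl_l H.two
  have hcS1 : 1 ≤ cS := by
    rw [hbc]
    have hb1 : b ≠ 0 := by
      rw [hb]
      refine Nat.mul_ne_zero hr0 ?_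
      have h5 : 1 ≤ ∑ l ∈ Finset.range j, (p ^ a) ^ l := by
        rw [← pow_zero (p ^ a)]
        exact Finset.single_le_sum (f := fun l => (p ^ a) ^ l) (fun _ _ => Nat.zero_le _)
          (Finset.mem_range.2 (Nat.pos_of_ne_zero hj))
      omega
    exact Nat.one_le_iff_ne_zero.2 (Nat.mul_ne_zero (by omega) hb1)
  have hcS2 : cS ≤ Fintype.card (Fx φ 3) - 1 := by
    rw [c3, hqj, ← pow_mul, mul_comm j 3]
    exact geom_bd hQ1 hrlt
  have hc3' : ((Fintype.card (Fx φ 3) - 1 : ℕ) : ℤ) = (q : ℤ) ^ 3 - 1 := by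
    rw [c3, Nat.cast_sub (Nat.one_le_pow _ _ (by omega))]
    push_cast
    ring
  have h6 := h5.congr (a' := (cS : ℤ)) (b' := -(-(b : ℤ) + (0 + ((1 + q + q ^ 2 : ℕ) : ℤ) * b))) (by
    rw [hc3', hbc]
    push_cast
    exact ⟨-((q : ℤ) + 2) * b, by ring⟩) (by
    rw [sub_self]
    exact dvd_zero _)
  have S := dim_strings' H hirr hc hφ₀ hne h0 ι₀ hcS1 hcS2 (fun t => ⟨_, h3.1 t⟩) (fun t => by
    rw [h4.1 t]
    congr 1
    rw [← zpow_natCast, hbc]
    congr 1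
    push_cast
    ring) (fun t => by
    rw [rho_mul, rho_mul, h6.1 t, zpow_natCast]) (fun t => ⟨_, by
    rw [rho_mul, rho_mul, rho_mul, rho_mul]
    exact h5'.1 t⟩)
  rw [card_SS_geom hrlt, hfin] at S
  have h7 := two_le_card_SS (p := p) hr0
  have h8 := Nat.pow_le_pow_left h7 (3 * j)
  rw [pow_mul] at h8
  norm_num at h8
  omega

end d4

/-! ### the rows -/

section rows

open Cfsg Cfsg.Geo
open Cfsg.Agent.H419.EP Cfsg.Agent.H915.LD Cfsg.Agent.H100.Ppd Cfsg.Agent.H59.EP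
open scoped MatrixGroups

variable {Q : Type} [Group Q] [Finite Q] {A : Subgroup Q} {Γ : Subgroup (MulAut Q)} {ι : Type} [Fintype ι]
    [DecidableEq ι] {F : Type} [Field F] [Fintype F] {S P : Subgroup (GL ι F)}

/-- `2 ^ E ≤ 8 |Q|` and the order bound -/
theorem kill_num (b : Big A Γ S P) {B E : ℕ} (hQ : 10000 * Nat.card Q ≤ Nat.card A ^ 5 * 14) (hA : Nat.card A ≤ B)
    (hE : 2 ^ E ≤ Fintype.card F ^ (Fintype.card ι * (Fintype.card ι - 1) / 2)) (h : 8 * (B ^ 5 * 14) < 10000 * 2 ^ E) :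
    False := by
  have h1 := hE.trans b.ord
  have h2 : Nat.card A ^ 5 * 14 ≤ B ^ 5 * 14 := Nat.mul_le_mul_right _ (Nat.pow_le_pow_left hA 5)
  omega

open Cfsg.Agent.H744.Ppd.D4 in
/-- **Socle `³D₄(2)`.** -/
theorem two_3d4 (b : Big A Γ S P) (hg : TwoGen.{0}) {K : Type} [Field K] [Fintype K]
    (hK : Fintype.card K = 2 ^ 3) (hc : ringChar F = ringChar K)
    (e : Nonempty (socle P ≃* Lie.twistedD4 K 2)) : False := by
  obtain ⟨e⟩ := e
  obtain ⟨hQ, hAle⟩ := ub_3D4 hg b hK e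
  have hC : Core P := core_of_residual b.core
  have hcK : CharP K 2 := charP_two hK
  have hcF : CharP F 2 := by
    have h1 : ringChar F = 2 := hc.trans (ringChar.eq K 2)
    exact h1 ▸ ringChar.charP F
  have hp : Fact (Nat.Prime 2) := ⟨Nat.prime_two⟩
  have hq : IsPrimePow 2 := Nat.prime_two.isPrimePow
  have hne : Nonempty ι := nonempty_of_big b
  have hn := b.thirteen
  obtain ⟨f⟩ := Cfsg.Agent.H48.DsChev.d4_equiv hC hq hK e
  obtain ⟨φ, hφ⟩ := Cfsg.Agent.ChevalleyStructure.D4Fixed.exists_frob hq hK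
  have h2 : 2 ≤ Fintype.card ι := by omega
  have hθ : (P.subtype.comp f.symm.toMonoidHom).range = P := by
    rw [MonoidHom.range_comp, MonoidHom.range_eq_top.2 f.symm.surjective, ← MonoidHom.range_eq_map,
      Subgroup.range_subtype]
  have : Finite CoxeterMatrix.G₂.Group := Cfsg.Agent.H249.PPTwD4.finiteW CoxeterMatrix.G₂.toCoxeterSystem
  obtain ⟨j, hj1, hj⟩ := card_pow_eq 2 (show 3 ≠ 0 by norm_num) (fun x => pow_eq_of_no_subfield hC.absIrred
    hC.no_subfield 2 3 (fun g hg => trace_pow (Nodes.RGDTwD4.rgd CoxeterMatrix.G₂.toCoxeterSystem hK hφ 2) (GG4 hK hφ)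
      Cfsg.Agent.H249.PPTwD4.T_comm hθ hC.absIrred (fun t ht => by rw [← hK]; exact T_pow t ht) hg) x)
  have hj' : Fintype.card F ^ j = 2 ^ 3 := by rw [← Nat.card_eq_fintype_card]; exact hj
  obtain ⟨a, ha⟩ : ∃ a : ℕ, Nat.card F = 2 ^ a := by
    obtain ⟨a, -, ha⟩ := FiniteField.card F 2
    exact ⟨a, by rw [Nat.card_eq_fintype_card, ha]⟩
  have haj : a * j = 3 := by
    have h3 : 2 ^ (a * j) = 2 ^ 3 := by rw [pow_mul, ← ha, hj]
    exact Nat.pow_right_injective (le_refl 2) h3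
  have hF : Fintype.card F = 2 ^ a := by rw [← Nat.card_eq_fintype_card, ha]
  have hcase : (a = 3 ∧ j = 1) ∨ (a = 1 ∧ j = 3) := by
    rcases (Nat.dvd_prime Nat.prime_three).1 (Dvd.intro j haj) with h | h
    · right; exact ⟨h, by rw [h] at haj; omega⟩
    · left; exact ⟨h, by rw [h] at haj; omega⟩
  rcases hcase with ⟨rfl, rfl⟩ | ⟨rfl, rfl⟩
  · -- `|F| = 8`
    refine kill_num b hQ hAle (E := 3 * 78) ?_ (by norm_num)
    rw [hF, ← pow_mul]
    refine Nat.pow_le_pow_right (by norm_num) (Nat.mul_le_mul_left 3 ?_)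
    have h9 : 13 * 12 ≤ Fintype.card ι * (Fintype.card ι - 1) := Nat.mul_le_mul (by omega) (by omega)
    omega
  · -- `|F| = 2`
    have h18 : 18 ≤ Fintype.card ι := by
      rcases exists_node 2 hK hφ hθ hC.absIrred h2 with h1 | ⟨h1, h0⟩
      · have h4 := short_ge 2 hK hφ hθ hC.absIrred h1 ha (f := 3) rfl (s := 3) (by norm_num)
        norm_num at h4
        omega
      · exact long_two' 2 hK hφ hθ hC.absIrred (by norm_num) h1 h0 (j := 1) (by norm_num) ha (by norm_num)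
    refine kill_num b hQ hAle (E := 153) ?_ (by norm_num)
    rw [hF, pow_one]
    refine Nat.pow_le_pow_right (by norm_num) ?_
    have h9 : 18 * 17 ≤ Fintype.card ι * (Fintype.card ι - 1) := Nat.mul_le_mul (by omega) (by omega)
    omega

end rows

end Cfsg.Agent.H241.Own
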