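import Cfsg.Agent.H241.Own.ExcTwo

/-!
# S3499: `F₄(2)`, `E₇(2)`, `E₈(2)`, `²E₆(2)` in dimension at least 13 (helper241)
-/

set_option autoImplicit false
set_option linter.unusedSectionVars false
set_option linter.style.haveILetI false
set_option linter.style.longLine false

namespace Cfsg.Agent.H241.Own

open Matrix CoxeterSystem Cfsg.Agent.ChevalleyStructure.CoxeterGeom Cfsg.Agent.Tits.Roots Cfsg.Agent.Tits.Core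
  Cfsg.Agent.Tits.Exchange Cfsg.Agent.Nodes.Reps Cfsg.Agent.Nodes.BNOf Cfsg.Agent.Nodes.Bruhat
open Cfsg.Agent.H905.DC Cfsg.Agent.H915.LD Cfsg.Agent.KFacts.MulOdd.Inst
open Cfsg.Agent.H64.CrossChev (Nd nd isType_F4 isType_E6 isType_E7 isType_E8 parity_E7)
open Cfsg.Agent.Nodes.RGDChev (IsType)
open Cfsg.Lie Cfsg.Agent.ChevalleyStructure Cfsg.Agent.ChevalleyStructure.Elts
  Cfsg.Agent.ChevalleyStructure.CoxeterGeomTypes Cfsg.Agent.KFacts.MulOdd.InstChev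
open Cfsg.Agent.H419.EP Cfsg.Agent.H59.EP
open Cfsg.Agent.H2.Ppd (exists_J diag_comm div_gcd_le three_mul_le index_ge)
open scoped MatrixGroups

theorem index_E7 {W : Type*} [Group W] [Finite W] (cs : CoxeterSystem CoxeterMatrix.E₇ W) {J : Set (Fin 7)} {i : Fin 7}
    (hi : i ∉ J) : 37 ≤ (WJ cs J).index := by
  fin_cases i
  · exact index_ge cs isCartan_cE7 hi [![1, -1, 0, 0, 0, 1, -1], ![-1, 0, 0, 1, 0, -1, 0], ![-1, 1, 1, -1, 0, 1, -1], ![0, 1, -1, 0, 0, 0, 1], ![-1, -1, 1, 0, 0, 0, 1], ![1, 0, -1, 1, 0, -1, 0], ![1, 1, 0, -1, 0, 1, -1], ![1, -1, 0, 0, 0, 0, 1], ![-1, 0, 0, 1, -1, 1, -1], ![-1, 1, 1, -1, 0, 0, 1], ![0, 0, 1, 0, 0, -1, 0], ![1, 0, -1, 1, -1, 1, -1], ![1, 1, 0, -1, 0, 0, 1], ![-1, 0, 0, 0, 1, 0, -1], ![-1, 0, 0, 1, -1, 0, 1], ![0, 0, 1, 0, -1, 1, -1], ![1, 0, -1, 0, 1, 0, -1], ![1, 0, -1, 1, -1, 0, 1], ![-1,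 0, 0, 0, 1, -1, 1], ![0, 0, 1, -1, 1, 0, -1], ![0, 0, 1, 0, -1, 0, 1], ![1, 0, -1, 0, 1, -1, 1], ![-1, 0, 0, 0, 0, 1, 0], ![0, -1, 0, 1, 0, 0, -1], ![0, 0, 1, -1, 1, -1, 1], ![1, 0, -1, 0, 0, 1, 0], ![0, 1, 0, 0, 0, 0, -1], ![0, -1, 0, 1, 0, -1, 1], ![0, 0, 1, -1, 0, 1, 0], ![0, 1, 0, 0, 0, -1, 1], ![0, -1, 0, 1, -1, 1, 0], ![0, 1, 0, 0, -1, 1, 0], ![0, -1, 0, 0, 1, 0, 0], ![0, 1, 0, -1, 1, 0, 0], ![0, 0, -1, 1, 0, 0, 0], ![-1, 0, 1, 0, 0, 0, 0], ![1, 0, 0, 0, 0, 0, 0]] (by decide +kernel)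
  · exact index_ge cs isCartan_cE7 hi [![0, 1, -1, 1, -1, 0, 1], ![-1, -1, 1, 0, 1, 0, -1], ![-1, -1, 1, 1, -1, 0, 1], ![0, -1, -1, 1, 1, -1, 1], ![0, 0, 0, -1, 1, 1, 0], ![1, 1, 0, 0, -1, 1, -1], ![1, -1, 0, 0, 1, 0, -1], ![1, -1, 0, 1, -1, 0, 1], ![-1, 1, 1, -1, 1, 0, -1], ![-1, 1, 1, 0, -1, 0, 1], ![0, 1, -1, 0, 1, -1, 1], ![-1, -1, 1, 0, 1, -1, 1], ![0, -1, -1, 1, 0, 1, 0], ![1, 1, 0, -1, 1, 0, -1], ![1, 1, 0, 0, -1, 0, 1], ![1, -1, 0, 0, 1, -1, 1], ![-1, 0, 0, 1, 0, 0, -1], ![-1, 1, 1, -1, 1, -1, 1], ![0, 1, -1, 0, 0, 1, 0], ![-1, -1, 1, 0, 0, 1, 0], ![1, 0, -1, 1, 0, 0, -1], ![1, 1, 0, -1, 1, -1, 1], ![1, -1, 0, 0, 0, 1, 0], ![-1, 0, 0, 1, 0, -1, 1], ![-1, 1, 1, -1, 0, 1, 0], ![0, 0, 1, 0, 0, 0, -1], ![1, 0, -1, 1, 0, -1, 1], ![1, 1, 0, -1, 0, 1, 0], ![-1, 0, 0, 1, -1, 1, 0], ![0, 0, 1, 0, 0, -1, 1], ![1, 0, -1, 1, -1,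 1, 0], ![-1, 0, 0, 0, 1, 0, 0], ![0, 0, 1, 0, -1, 1, 0], ![1, 0, -1, 0, 1, 0, 0], ![0, 0, 1, -1, 1, 0, 0], ![0, -1, 0, 1, 0, 0, 0], ![0, 1, 0, 0, 0, 0, 0]] (by decide +kernel)
  · exact index_ge cs isCartan_cE7 hi [![0, 2, 0, -1, 1, -1, 1], ![0, -2, 0, 1, 0, 1, 0], ![-1, -1, 1, 1, 0, 0, -1], ![-1, 0, 2, -1, 1, -1, 1], ![1, 0, -2, 1, 0, 1, 0], ![0, -1, -1, 2, 0, -1, 1], ![0, 1, 1, -2, 1, 1, 0], ![0, 0, 0, 1, -2, 2, 0], ![1, -1, 0, 1, 0, 0, -1], ![1, 0, 1, -1, 1, -1, 1], ![2, 0, -1, 0, 0, 1, 0], ![-1, 1, 1, 0, 0, 0, -1], ![0, 1, -1, 1, 0, -1, 1], ![0, 2, 0, -1, 0, 1, 0], ![-1, -1, 1, 1, 0, -1, 1], ![-1, 0, 2, -1, 0, 1, 0], ![0, -1, -1, 2, -1, 1, 0], ![0, 0, 0, -1, 2, 0, 0], ![1, 1, 0, 0, 0, 0, -1], ![1, -1, 0, 1, 0, -1, 1], ![1, 0, 1, -1, 0, 1, 0], ![-1, 1, 1, 0, 0, -1, 1], ![0, 1, -1, 1, -1, 1, 0], ![-1, -1, 1, 1, -1, 1, 0],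 ![0, -1, -1, 1, 1, 0, 0], ![1, 1, 0, 0, 0, -1, 1], ![1, -1, 0, 1, -1, 1, 0], ![-1, 1, 1, 0, -1, 1, 0], ![0, 1, -1, 0, 1, 0, 0], ![-1, -1, 1, 0, 1, 0, 0], ![1, 1, 0, 0, -1, 1, 0], ![1, -1, 0, 0, 1, 0, 0], ![-1, 1, 1, -1, 1, 0, 0], ![1, 1, 0, -1, 1, 0, 0], ![-1, 0, 0, 1, 0, 0, 0], ![1, 0, -1, 1, 0, 0, 0], ![0, 0, 1, 0, 0, 0, 0]] (by decide +kernel)
  · exact index_ge cs isCartan_cE7 hi [![1, 1, 1, -1, -1, 2, 0], ![-1, -1, 0, 2, 0, -1, 1], ![-1, 1, 2, -2, 1, 1, 0], ![-1, 0, 1, 1, -2, 2, 0], ![0, 0, -1, 0, 2, 0, 0], ![1, 1, -1, 1, 0, 0, -1], ![1, 2, 0, -1, 1, -1, 1], ![1, -2, 0, 1, 0, 1, 0], ![-1, 1, 0, 1, 0, -1, 1], ![-1, 2, 1, -1, 0, 1, 0], ![0, -1, 1, 1, 0, 0, -1], ![0, 0, 2, -1, 1, -1, 1], ![2, 0, -2, 1, 0, 1, 0], ![1, -1, -1, 2, 0, -1, 1], ![1, 1, 1, -2, 1, 1, 0], ![1, 0, 0, 1, -2, 2, 0], ![-1, -1, 0, 2, -1, 1, 0], ![-1,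 0, 1, -1, 2, 0, 0], ![0, 1, 1, 0, 0, 0, -1], ![1, 1, -1, 1, 0, -1, 1], ![1, 2, 0, -1, 0, 1, 0], ![-1, 1, 0, 1, -1, 1, 0], ![0, -1, 1, 1, 0, -1, 1], ![0, 0, 2, -1, 0, 1, 0], ![1, -1, -1, 2, -1, 1, 0], ![1, 0, 0, -1, 2, 0, 0], ![-1, -1, 0, 1, 1, 0, 0], ![0, 1, 1, 0, 0, -1, 1], ![1, 1, -1, 1, -1, 1, 0], ![-1, 1, 0, 0, 1, 0, 0], ![0, -1, 1, 1, -1, 1, 0], ![1, -1, -1, 1, 1, 0, 0], ![0, 1, 1, 0, -1, 1, 0], ![1, 1, -1, 0, 1, 0, 0], ![0, -1, 1, 0, 1, 0, 0], ![0, 1, 1, -1, 1, 0, 0], ![0, 0, 0, 1, 0, 0, 0]] (by decide +kernel)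
  · exact index_ge cs isCartan_cE7 hi [![0, 0, -1, 0, 1, 1, 0], ![0, 1, 1, 0, 0, -1, 0], ![1, 1, -1, 1, -1, 1, -1], ![1, 2, 0, -1, 0, 0, 1], ![-1, 1, 0, 0, 1, 0, -1], ![-1, 1, 0, 1, -1, 0, 1], ![0, -1, 1, 1, -1, 1, -1], ![0, 0, 2, -1, 0, 0, 1], ![1, -1, -1, 1, 1, 0, -1], ![1, -1, -1, 2, -1, 0, 1], ![1, 0, 0, -1, 2, -1, 1], ![1, 0, 0, 0, -1, 2, 0], ![-1, -1, 0, 1, 1, -1, 1], ![-1, 0, 1, -1, 1, 1, 0], ![0, 1, 1, 0, -1, 1, -1], ![1, 1, -1, 0, 1, 0, -1], ![1, 1, -1, 1, -1, 0, 1], ![-1, 1, 0, 0, 1, -1, 1], ![0, -1, 1, 0, 1, 0, -1], ![0, -1, 1, 1, -1, 0, 1], ![1, -1, -1, 1, 1, -1, 1], ![1, 0, 0, -1, 1, 1, 0], ![-1, -1, 0, 1, 0, 1, 0], ![0, 1, 1, -1, 1, 0, -1], ![0, 1, 1, 0, -1, 0, 1], ![1, 1, -1, 0, 1, -1, 1], ![-1, 1, 0, 0, 0, 1, 0], ![0, -1, 1, 0, 1, -1, 1], ![1, -1, -1, 1, 0, 1, 0], ![0, 0, 0, 1, 0, 0, -1], ![0, 1, 1, -1, 1,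 -1, 1], ![1, 1, -1, 0, 0, 1, 0], ![0, -1, 1, 0, 0, 1, 0], ![0, 0, 0, 1, 0, -1, 1], ![0, 1, 1, -1, 0, 1, 0], ![0, 0, 0, 1, -1, 1, 0], ![0, 0, 0, 0, 1, 0, 0]] (by decide +kernel)
  · exact index_ge cs isCartan_cE7 hi [![1, 0, 0, -1, 2, -1, 0], ![1, 0, 0, 0, -1, 2, -1], ![1, 0, 0, 0, 0, -1, 2], ![-1, -1, 0, 1, 1, -1, 0], ![-1, 0, 1, -1, 1, 1, -1], ![-1, 0, 1, 0, -1, 1, 1], ![0, 0, -1, 0, 1, 0, 1], ![1, 1, -1, 1, -1, 0, 0], ![-1, 1, 0, 0, 1, -1, 0], ![0, -1, 1, 1, -1, 0, 0], ![1, -1, -1, 1, 1, -1, 0], ![1, 0, 0, -1, 1, 1, -1], ![1, 0, 0, 0, -1, 1, 1], ![-1, -1, 0, 1, 0, 1, -1], ![-1, 0, 1, -1, 1, 0, 1], ![0, 1, 1, 0, -1, 0, 0], ![1, 1, -1, 0, 1, -1, 0], ![-1, 1, 0, 0, 0, 1, -1], ![0, -1, 1, 0, 1, -1, 0], ![1, -1, -1, 1, 0, 1, -1], ![1, 0, 0, -1, 1, 0, 1], ![-1, -1, 0, 1, 0, 0, 1], ![0, 1, 1, -1, 1, -1, 0], ![1, 1, -1, 0, 0, 1,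 -1], ![-1, 1, 0, 0, 0, 0, 1], ![0, -1, 1, 0, 0, 1, -1], ![1, -1, -1, 1, 0, 0, 1], ![0, 0, 0, 1, 0, -1, 0], ![0, 1, 1, -1, 0, 1, -1], ![1, 1, -1, 0, 0, 0, 1], ![0, -1, 1, 0, 0, 0, 1], ![0, 0, 0, 1, -1, 1, -1], ![0, 1, 1, -1, 0, 0, 1], ![0, 0, 0, 0, 1, 0, -1], ![0, 0, 0, 1, -1, 0, 1], ![0, 0, 0, 0, 1, -1, 1], ![0, 0, 0, 0, 0, 1, 0]] (by decide +kernel)
  · exact index_ge cs isCartan_cE7 hi [![0, -1, 0, 1, 0, -1, 0], ![0, 0, 1, -1, 0, 1, -1], ![1, 0, -1, 0, 0, 0, 1], ![0, 1, 0, 0, 0, -1, 0], ![0, -1, 0, 1, -1, 1, -1], ![0, 0, 1, -1, 0, 0, 1], ![0, 1, 0, 0, -1, 1, -1], ![0, -1, 0, 0, 1, 0, -1], ![0, -1, 0, 1, -1, 0, 1], ![0, 1, 0, -1, 1, 0, -1], ![0, 1, 0, 0, -1, 0, 1], ![0, -1, 0, 0, 1, -1, 1], ![0, 0, -1, 1, 0, 0, -1], ![0, 1, 0, -1, 1, -1, 1], ![0, -1, 0, 0, 0, 1, 0], ![-1, 0, 1, 0, 0, 0, -1], ![0, 0, -1, 1, 0, -1, 1], ![0,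 1, 0, -1, 0, 1, 0], ![1, 0, 0, 0, 0, 0, -1], ![-1, 0, 1, 0, 0, -1, 1], ![0, 0, -1, 1, -1, 1, 0], ![1, 0, 0, 0, 0, -1, 1], ![-1, 0, 1, 0, -1, 1, 0], ![0, 0, -1, 0, 1, 0, 0], ![1, 0, 0, 0, -1, 1, 0], ![-1, 0, 1, -1, 1, 0, 0], ![1, 0, 0, -1, 1, 0, 0], ![-1, -1, 0, 1, 0, 0, 0], ![-1, 1, 0, 0, 0, 0, 0], ![1, -1, -1, 1, 0, 0, 0], ![1, 1, -1, 0, 0, 0, 0], ![0, -1, 1, 0, 0, 0, 0], ![0, 1, 1, -1, 0, 0, 0], ![0, 0, 0, 1, -1, 0, 0], ![0, 0, 0, 0, 1, -1, 0], ![0, 0, 0, 0, 0, 1, -1], ![0, 0, 0, 0, 0, 0, 1]] (by decide +kernel)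

section

variable {Q : Type} [Group Q] [Finite Q] {A : Subgroup Q} {Γ : Subgroup (MulAut Q)} {ι : Type} [Fintype ι]
    [DecidableEq ι] {F : Type} [Field F] [Fintype F] {S P : Subgroup (GL ι F)}
  (b : Big A Γ S P) {K : Type} [Field K] [Fintype K]
include b

/-- **Chevalley groups over a field with two elements: the dimension.** -/
theorem two_chev (hK : Fintype.card K = 2) (hc : ringChar F = ringChar K) {D : ChevalleyDatum} {l : ℕ}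
    {M : CoxeterMatrix (Fin l)} (ht : IsType D l M) (hpar : parity D l = true) {c : ℕ}
    (hidx : ∀ (_ : Finite M.Group) (J : Set (Fin l)) (i : Fin l), i ∉ J → c ≤ (WJ M.toCoxeterSystem J).index)
    (e : socle P ≃* ↥(D.group K)) : c ≤ Fintype.card ι := by
  have hp : Fact (Nat.Prime 2) := ⟨Nat.prime_two⟩
  have hcK : CharP K 2 := charP_two (n := 1) (by rw [hK, pow_one])
  have hcF : CharP F 2 := by
    have h1 : ringChar F = 2 := hc.trans (ringChar.eq K 2)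
    exact h1 ▸ ringChar.charP F
  obtain ⟨a, -, hF⟩ := FiniteField.card F 2
  have hF' : Nat.card F = 2 ^ (a : ℕ) := by rw [Nat.card_eq_fintype_card, hF]
  have : Finite M.Group := Cfsg.Agent.Nodes.RGDChev.finite_W ht M.toCoxeterSystem
  obtain ⟨J, ⟨i, hi⟩, h2, -⟩ := exists_J (core_of_residual b.core)
    (Cfsg.Agent.Nodes.RGDChev.rgd (K := K) ht M.toCoxeterSystem 2)
    (Cfsg.Agent.Nodes.RGDChev.G1_eq_top ht M.toCoxeterSystem)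
    (fun s hs t ht' => Subtype.ext (diag_comm ht.inList hs ht')) (E := fun _ => K) (nd ht hpar K) e hF'
    (f := fun _ => 1) (fun _ => by rw [hK, pow_one])
  have h3 := h2 i hi
  have h4 := hidx this J i hi
  have h5 : Nat.gcd (a : ℕ) 1 = 1 := Nat.gcd_one_right _
  simp only [h5] at h3
  omega

omit b in
theorem pow_le_of {N n q : ℕ} (hn : N ≤ n) (hq : 2 ≤ q) : 2 ^ (N * (N - 1) / 2) ≤ q ^ (n * (n - 1) / 2) := by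
  have h1 : N * (N - 1) / 2 ≤ n * (n - 1) / 2 := Nat.div_le_div_right (Nat.mul_le_mul hn (by omega))
  exact (Nat.pow_le_pow_right (by norm_num) h1).trans (Nat.pow_le_pow_left hq _)

/-- **Socle `F₄(2)`.** -/
theorem two_f4 (hg : TwoGen.{0}) (hK : Fintype.card K = 2) (hc : ringChar F = ringChar K)
    (e : Nonempty (socle P ≃* ↥(Lie.chevF4.group K))) : False := by
  obtain ⟨e⟩ := e
  obtain ⟨hQ, hA⟩ := ub_F4 hg b hK e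
  have hn := two_chev b hK hc isType_F4 parity_F4 (c := 24) (fun _ J i hi => Cfsg.Agent.H2.Ppd.index_F4 _ hi) e
  exact kill_num b hQ hA (E := 24 * (24 - 1) / 2) (pow_le_of hn Fintype.one_lt_card)
    (by decide +kernel)

/-- **Socle `E₇(2)`.** -/
theorem two_e7 (hg : TwoGen.{0}) (hK : Fintype.card K = 2) (hc : ringChar F = ringChar K)
    (e : Nonempty (socle P ≃* ↥(Lie.chevE7.group K))) : False := by
  obtain ⟨e⟩ := e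
  obtain ⟨hQ, hA⟩ := ub_E7 hg b hK e
  have hn := two_chev b hK hc isType_E7 parity_E7 (c := 37) (fun _ J i hi => index_E7 _ hi) e
  exact kill_num b hQ hA (E := 37 * (37 - 1) / 2) (pow_le_of hn Fintype.one_lt_card)
    (by decide +kernel)

/-- **Socle `E₈(2)`.** -/
theorem two_e8 (hg : TwoGen.{0}) (hK : Fintype.card K = 2) (hc : ringChar F = ringChar K)
    (e : Nonempty (socle P ≃* ↥(Lie.chevE8.group K))) : False := by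
  obtain ⟨e⟩ := e
  obtain ⟨hQ, hA⟩ := ub_E8 hg b hK e
  have hn := two_chev b hK hc isType_E8 parity_E8 (c := 60) (fun _ J i hi => Cfsg.Agent.H2.Ppd.index_E8 _ hi) e
  exact kill_num b hQ hA (E := 60 * (60 - 1) / 2) (pow_le_of hn Fintype.one_lt_card)
    (by decide +kernel)

/-- **Socle `²E₆(2)`.** -/
theorem two_2e6 (hg : TwoGen.{0}) (hK : Fintype.card K = 2 ^ 2) (hc : ringChar F = ringChar K)
    (e : Nonempty (socle P ≃* ↥(Lie.twistedE6 K 2))) : False := by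
  classical
  obtain ⟨e⟩ := e
  obtain ⟨hQ, hAle⟩ := ub_2E6 hg b hK e
  have hp : Fact (Nat.Prime 2) := ⟨Nat.prime_two⟩
  have hq : IsPrimePow 2 := Nat.prime_two.isPrimePow
  have hq1 := hq.one_lt
  have hcK : CharP K 2 := charP_two (n := 2) hK
  have hcF : CharP F 2 := by
    have h1 : ringChar F = 2 := hc.trans (ringChar.eq K 2)
    exact h1 ▸ ringChar.charP F
  obtain ⟨a, -, hF⟩ := FiniteField.card F 2
  have hF' : Nat.card F = 2 ^ (a : ℕ) := by rw [Nat.card_eq_fintype_card, hF]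
  -- the data
  obtain ⟨φ, hφ, hqq⟩ := TwE6Basic.exists_frob hq hK
  let _ : ∀ i : Fin 4, Fintype (Cfsg.Agent.Nodes.RGDFoldSL.Fx φ ((Nodes.RGDTwNode.E6.rest i).length + 1)) :=
    fun i => Fintype.ofFinite _
  have hch : ∀ i : Fin 4, CharP (Cfsg.Agent.Nodes.RGDFoldSL.Fx φ ((Nodes.RGDTwNode.E6.rest i).length + 1)) 2 :=
    fun i => (RingHom.charP_iff (Cfsg.Agent.Nodes.RGDFoldSL.Fx φ _).subtype
      (Cfsg.Agent.Nodes.RGDFoldSL.Fx φ _).subtype_injective 2).2 inferInstance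
  have hN := fun i : Fin 4 =>
    Cfsg.Agent.H59.CrossTw.nd_fold (Nodes.RGDTwE6.foldGrp hφ hqq) (Nodes.RGDTwNode.E6.nodeOK i) (φ := φ)
      (fun s hs t => by rw [Nodes.RGDTwNode.E6.eps_one i s hs, Int.cast_one, one_mul])
      (Cfsg.Agent.KFacts.MulOdd.InstTw.parityTw_spec Cfsg.Agent.KFacts.MulOdd.InstTw.parity_E6 i).choose_spec.1
      (Cfsg.Agent.KFacts.MulOdd.InstTw.parityTw_spec Cfsg.Agent.KFacts.MulOdd.InstTw.parity_E6 i).choose_spec.2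
  have hW : Finite CoxeterMatrix.F₄.Group :=
    Cfsg.Agent.Nodes.RGDFold.finite_W (hp := isType_E6) CoxeterMatrix.F₄.toCoxeterSystem Nodes.RGDTwE6.isCartan
      Nodes.RGDTwE6.foldData
  have hcard : ∀ i : Fin 4, Fintype.card (Cfsg.Agent.Nodes.RGDFoldSL.Fx φ ((Nodes.RGDTwNode.E6.rest i).length + 1)) =
      2 ^ (![1, 1, 2, 2] i) := by
    have e1 : Nat.card (Cfsg.Agent.Nodes.RGDFoldSL.Fx φ 1) = 2 := by
      have h2 := Cfsg.Agent.H59.CrossTw.card_Fx_one hq1 hK hφ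
      have h3 : 0 < Nat.card (Cfsg.Agent.Nodes.RGDFoldSL.Fx φ 1) := Nat.card_pos
      omega
    have e2 := Cfsg.Agent.H59.CrossTw.card_Fx_eq hK hφ
    intro i
    rw [← Nat.card_eq_fintype_card]
    fin_cases i
    · exact e1
    · exact e1
    · exact e2
    · exact e2
  obtain ⟨J, ⟨i, hi⟩, h2, h3⟩ := exists_J (core_of_residual b.core)
    (Nodes.RGDFold.rgd CoxeterMatrix.F₄.toCoxeterSystem Nodes.RGDTwE6.isCartan Nodes.RGDTwE6.foldData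
      (Nodes.RGDTwE6.foldGrp hφ hqq) 2)
    (Nodes.RGDFold.G1_eq_top CoxeterMatrix.F₄.toCoxeterSystem Nodes.RGDTwE6.isCartan Nodes.RGDTwE6.foldData
      (Nodes.RGDTwE6.foldGrp hφ hqq) 2)
    (fun s hs t ht' => Subtype.ext (diag_comm isType_E6.inList (Subgroup.mem_subgroupOf.1 hs).1
      (Subgroup.mem_subgroupOf.1 ht').1)) hN e hF' hcard
  have g2 := h2 2
  have g3 := h2 3
  have g1 := h2 1
  change 2 ∉ J → _ * 2 ^ (2 / Nat.gcd a 2) ≤ _ at g2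
  change 3 ∉ J → _ * 2 ^ (2 / Nat.gcd a 2) ≤ _ at g3
  change 1 ∉ J → _ * 2 ^ (1 / Nat.gcd a 1) ≤ _ at g1
  have g0 := fun h0 : (0 : Fin 4) ∉ J => fun hJ => h3 0 h0 hJ 3 (H2.Ppd.LF.filter fun v => decide (0 < v 3))
    (H2.Ppd.LF.filter fun v => decide (v 3 = 0))
  change ∀ h0 : (0 : Fin 4) ∉ J, _ → _ → _ → _ → _ → _ → _ →
    _ * 2 ^ (2 / Nat.gcd a 2) + _ ≤ _ at g0
  rw [Nat.gcd_one_right] at g1
  -- the dimension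
  have key : (Nat.gcd a 2 = 2 ∧ 24 ≤ Fintype.card ι) ∨ (Nat.gcd a 2 = 1 ∧ 36 ≤ Fintype.card ι) := by
    have hgcd : Nat.gcd (a : ℕ) 2 = 1 ∨ Nat.gcd (a : ℕ) 2 = 2 :=
      (Nat.dvd_prime Nat.prime_two).1 (Nat.gcd_dvd_right _ _)
    have hdim : 24 * (2 / Nat.gcd (a : ℕ) 2) ≤ Fintype.card ι ∨
        (Nat.gcd (a : ℕ) 2 = 1 ∧ 36 ≤ Fintype.card ι) := by
      by_cases h20 : (2 : Fin 4) ∈ J
      swap
      · left
        have h9 := g2 h20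
        have h10 := H2.Ppd.index_F4 CoxeterMatrix.F₄.toCoxeterSystem h20
        rcases hgcd with h | h <;> rw [h] at h9 ⊢ <;> norm_num at h9 ⊢ <;> omega
      by_cases h30 : (3 : Fin 4) ∈ J
      swap
      · left
        have h9 := g3 h30
        have h10 := H2.Ppd.index_F4 CoxeterMatrix.F₄.toCoxeterSystem h30
        rcases hgcd with h | h <;> rw [h] at h9 ⊢ <;> norm_num at h9 ⊢ <;> omega
      by_cases h10 : (1 : Fin 4) ∈ J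
      swap
      · left
        have h9 := g1 h10
        have h11 := H2.Ppd.index_F4' CoxeterMatrix.F₄.toCoxeterSystem h10
        rcases hgcd with h | h <;> rw [h] <;> norm_num at h9 ⊢ <;> omega
      have h00 : (0 : Fin 4) ∉ J := by
        intro h0
        apply hi
        fin_cases i
        · exact h0
        · exact h10
        · exact h20
        · exact h30
      obtain ⟨o1, o2⟩ := H2.Ppd.exists_of_chn CoxeterMatrix.F₄.toCoxeterSystem Nodes.RGDTwE6.isCartan H2.Ppd.chn_LF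
      have h9 := g0 h00 (by
          intro i hi
          fin_cases i
          · rfl
          · exact absurd h10 hi
          · exact absurd h20 hi
          · exact absurd h30 hi)
        (fun v hv => of_decide_eq_true (List.mem_filter.1 hv).2)
        (fun v hv => of_decide_eq_true (List.mem_filter.1 hv).2)
        (o2.filter _) (o2.filter _) (fun v hv => o1 v (List.mem_filter.1 hv).1) (fun v hv => o1 v (List.mem_filter.1 hv).1)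
      rw [H2.Ppd.LF_pos, H2.Ppd.LF_zero] at h9
      rcases hgcd with h | h
      · right
        rw [h] at h9
        norm_num at h9
        exact ⟨h, by omega⟩
      · left
        rw [h] at h9 ⊢
        norm_num at h9 ⊢
        omega
    rcases hgcd with h | h
    · right
      refine ⟨h, ?_⟩
      rcases hdim with h1 | h1
      · rw [h] at h1
        omega
      · exact h1.2
    · left
      refine ⟨h, ?_⟩
      rcases hdim with h1 | h1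
      · rw [h] at h1
        omega
      · omega
  rcases key with ⟨h, hn⟩ | ⟨-, hn⟩
  · have h4 : 2 ∣ (a : ℕ) := by rw [← h]; exact Nat.gcd_dvd_left _ _
    have h5 : 2 ^ 2 ≤ Fintype.card F := by
      rw [hF]
      exact Nat.pow_le_pow_right (by norm_num) (Nat.le_of_dvd a.pos h4)
    refine kill_num b hQ hAle (E := 2 * (24 * (24 - 1) / 2)) ?_ (by decide +kernel)
    rw [pow_mul]
    have h1 : 24 * (24 - 1) / 2 ≤ Fintype.card ι * (Fintype.card ι - 1) / 2 :=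
      Nat.div_le_div_right (Nat.mul_le_mul hn (by omega))
    exact (Nat.pow_le_pow_right (by norm_num) h1).trans (Nat.pow_le_pow_left h5 _)
  · exact kill_num b hQ hAle (E := 36 * (36 - 1) / 2) (pow_le_of hn Fintype.one_lt_card) (by decide +kernel)

end

end Cfsg.Agent.H241.Own
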