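import Cfsg.Agent.H419.EP.Big
import Cfsg.Agent.H744.Ppd.D4Dim
import Cfsg.Agent.H107.PglExc
import Cfsg.Agent.S2121
import Cfsg.Agent.S2129

/-!
# S3499: the socles `G₂(K)`, `³D₄(q₀)` in the characteristic of the module (helper241, task 6141)

* `dim_two` : two orthogonal strings; `long_two` : `2 * 8 ^ j ≤ |ι|` for `³D₄`, the long node alone;
* `not_g2`, `not_3d4` : the rows.
-/

set_option autoImplicit false
set_option linter.unusedSectionVars false
set_option linter.style.haveILetI false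

namespace Cfsg.Agent.H241.Own

open Matrix (SpecialLinearGroup)
open Cfsg.Agent.H911.SLTwo Cfsg.Agent.H875.Fn Cfsg.Agent.H744.Ppd
open CoxeterSystem Cfsg.Agent.ChevalleyStructure.CoxeterGeom Cfsg.Agent.Tits.Roots Cfsg.Agent.Tits.Core
  Cfsg.Agent.Tits.Exchange Cfsg.Agent.Nodes.Reps Cfsg.Agent.Nodes.BNOf Cfsg.Agent.Nodes.StabComb
  Cfsg.Agent.Nodes.Bruhat Cfsg.Agent.Nodes.OppDec Cfsg.Agent.Nodes.LeviDec Cfsg.Agent.KFacts.RgdOpp
  Cfsg.Agent.Omega.CR Cfsg.Agent.Omega.FOne.Lift.Sd Cfsg.Agent.H905.Md Cfsg.Agent.H650.Ppd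

/-! ### two strings -/

section two

variable {E : Type*} [Field E] [Fintype E] {k : Type*} [Field k] {j : E →+* k} {V : Type*} [AddCommGroup V] [Module k V]
  {R : SpecialLinearGroup (Fin 2) E →* Module.End k V}

theorem row_zero {φ : Module.Dual k V} {v : V} (lo : ∀ t x, φ (R (Lo t) x) = φ x) (up : ∀ t, R (U t) v = v)
    (tor : ∀ s : Eˣ, ∃ a : k, R (hh s) v = a • v) (h1 : φ v = 0) (h2 : φ (R ww v) = 0)
    (g : SpecialLinearGroup (Fin 2) E) : φ (R g v) = 0 := by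
  by_cases ha : g.1 0 0 = 0
  · have hdet := det_eq g
    rw [ha, zero_mul, zero_sub] at hdet
    have hb : g.1 0 1 ≠ 0 := by
      intro h0
      rw [h0, zero_mul, neg_zero] at hdet
      exact zero_ne_one hdet
    obtain ⟨b, hb'⟩ : ∃ b : Eˣ, (b : E) = g.1 0 1 := ⟨Units.mk0 _ hb, rfl⟩
    have e : g = ww * hh b⁻¹ * U (-(g.1 0 1 * g.1 1 1)) := by
      have hb0 : (b : E) ≠ 0 := b.ne_zero
      apply ext' <;> simp only [m00, m01, m10, m11, hh00, hh01, hh10, hh11, U00, U01, U10, U11, ww00, ww01, ww10, ww11,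
        inv_inv, Units.val_inv_eq_inv_val, ha, ← hb']
      · simp
      · simp
      · have h1 : g.1 1 0 = -(b : E)⁻¹ := by
          field_simp
          rw [hb']
          linear_combination -hdet
        rw [h1]; ring
      · field_simp
        ring
    obtain ⟨a, hs⟩ := tor b⁻¹
    rw [e, map_mul, map_mul, Module.End.mul_apply, Module.End.mul_apply, up, hs, map_smul, map_smul, h2, smul_zero]
  · obtain ⟨a, ha'⟩ : ∃ a : Eˣ, (a : E) = g.1 0 0 := ⟨Units.mk0 _ ha, rfl⟩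
    have hdet := det_eq g
    have e : g = Lo (g.1 1 0 * (g.1 0 0)⁻¹) * hh a * U ((g.1 0 0)⁻¹ * g.1 0 1) := by
      apply ext' <;> simp only [m00, m01, m10, m11, hh00, hh01, hh10, hh11, U00, U01, U10, U11, Lo00, Lo01, Lo10, Lo11,
        Units.val_inv_eq_inv_val, ha'] <;> field_simp <;> (try ring1)
      linear_combination hdet
    have e2 : R g v = R (Lo (g.1 1 0 * (g.1 0 0)⁻¹)) (R (hh a) (R (U ((g.1 0 0)⁻¹ * g.1 0 1)) v)) := by
      conv_lhs => rw [e]
      rw [map_mul, map_mul, Module.End.mul_apply, Module.End.mul_apply]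
    obtain ⟨x, hs⟩ := tor a
    rw [e2, lo, up, hs, map_smul, h1, smul_zero]

variable (p : ℕ) [hp : Fact p.Prime] [CharP k p]

include hp in
/-- **two orthogonal strings** -/
theorem dim_two {φ₁ φ₂ : Module.Dual k V} {v₁ v₂ : V} {c : ℕ} (H₁ : Str j R φ₁ v₁ c) (H₂ : Str j R φ₂ v₂ c)
    (h12 : φ₁ v₂ = 0) (h12' : φ₁ (R ww v₂) = 0) (h21 : φ₂ v₁ = 0) (h21' : φ₂ (R ww v₁) = 0)
    [FiniteDimensional k V] : 2 * (SS p c).card ≤ Module.finrank k V := by
  have z12 : ∀ g, φ₁ (R g v₂) = 0 := row_zero H₁.lo H₂.up (fun s => ⟨_, H₂.tor s⟩) h12 h12'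
  have z21 : ∀ g, φ₂ (R g v₁) = 0 := row_zero H₂.lo H₁.up (fun s => ⟨_, H₁.tor s⟩) h21 h21'
  have e12 : emb R φ₁ v₂ = 0 := by
    funext x
    by_cases hx : x = 0
    · rw [hx, emb_zero]; rfl
    · obtain ⟨g, rfl⟩ := exists_row x hx
      rw [emb_row H₁.lo, z12]; rfl
  have e21 : emb R φ₂ v₁ = 0 := by
    funext x
    by_cases hx : x = 0
    · rw [hx, emb_zero]; rfl
    · obtain ⟨g, rfl⟩ := exists_row x hx
      rw [emb_row H₂.lo, z21]; rfl
  set Ψ : V →ₗ[k] (E × E → k) × (E × E → k) := (emb R φ₁).prod (emb R φ₂) with hΨ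
  have k1 : L j c ≤ (LinearMap.range Ψ).comap (LinearMap.inl k (E × E → k) (E × E → k)) := by
    rw [L_eq_span j p H₁.le, Submodule.span_le]
    rintro _ ⟨m, hm, rfl⟩
    refine mono_mem_span_Lo j p H₁.le (fun t => ?_) hm
    rw [Submodule.mem_comap, LinearMap.inl_apply]
    refine ⟨(φ₁ v₁)⁻¹ • R (Lo t) v₁, ?_⟩
    rw [map_smul]
    refine Prod.ext ?_ ?_
    · change (φ₁ v₁)⁻¹ • emb R φ₁ (R (Lo t) v₁) = _
      rw [emb_act H₁.lo, H₁.emb_eq, map_smul, smul_smul, inv_mul_cancel₀ H₁.ne, one_smul]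
    · change (φ₁ v₁)⁻¹ • emb R φ₂ (R (Lo t) v₁) = _
      rw [emb_act H₂.lo, e21, map_zero, smul_zero]
  have k2 : L j c ≤ (LinearMap.range Ψ).comap (LinearMap.inr k (E × E → k) (E × E → k)) := by
    rw [L_eq_span j p H₂.le, Submodule.span_le]
    rintro _ ⟨m, hm, rfl⟩
    refine mono_mem_span_Lo j p H₂.le (fun t => ?_) hm
    rw [Submodule.mem_comap, LinearMap.inr_apply]
    refine ⟨(φ₂ v₂)⁻¹ • R (Lo t) v₂, ?_⟩
    rw [map_smul]
    refine Prod.ext ?_ ?_
    · change (φ₂ v₂)⁻¹ • emb R φ₁ (R (Lo t) v₂) = _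
      rw [emb_act H₁.lo, e12, map_zero, smul_zero]
    · change (φ₂ v₂)⁻¹ • emb R φ₂ (R (Lo t) v₂) = _
      rw [emb_act H₂.lo, H₂.emb_eq, map_smul, smul_smul, inv_mul_cancel₀ H₂.ne, one_smul]
  have k3 : LinearMap.range ((L j c).subtype.prodMap (L j c).subtype) ≤ LinearMap.range Ψ := by
    rintro _ ⟨⟨f, g⟩, rfl⟩
    have h1 : ((f : E × E → k), (0 : E × E → k)) ∈ LinearMap.range Ψ := k1 f.2
    have h2 : ((0 : E × E → k), (g : E × E → k)) ∈ LinearMap.range Ψ := k2 g.2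
    have h3 := Submodule.add_mem _ h1 h2
    rwa [Prod.mk_add_mk, add_zero, zero_add] at h3
  have k4 := (Submodule.finrank_mono k3).trans (LinearMap.finrank_range_le Ψ)
  rw [LinearMap.finrank_range_of_inj (Function.Injective.prodMap (Submodule.subtype_injective _)
    (Submodule.subtype_injective _)), Module.finrank_prod, finrank_L j p H₁.le] at k4
  omega

end two

/-! ### the vertices -/

section hx

variable {W Y : Type*} [Group W] [Group Y] {cs : CoxeterSystem CoxeterMatrix.G₂ W} {A : Fin 2 → Fin 2 → ℤ}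
  {h : IsCartan CoxeterMatrix.G₂ A} {p : ℕ} {T : Subgroup Y} {n : Fin 2 → Y} {X : (Fin 2 → ℤ) → Subgroup Y}
  {K E : Type*} [Field K] [Field E] {k V : Type*} [Field k] [AddCommGroup V] [Module k V]
  {R : RGD cs h p T n X} {s l : Fin 2} {ss : SpecialLinearGroup (Fin 2) K →* Y}
  {sl : SpecialLinearGroup (Fin 2) E →* Y} {ε : E →+* K} {N : Kˣ → Eˣ} {f : ℕ} [Finite Y] [Finite W] [Fact p.Prime]
  [CharP k p] {ρ : Y →* Module.End k V} [FiniteDimensional k V] [Nontrivial V]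
  (H : Hx R s l ss sl ε N f) (hirr : ∀ L : Submodule k V, Ivt ρ (GG cs h T X) L → L = ⊥ ∨ L = ⊤)
  {v₀ : V} (hv₀ : v₀ ∈ D cs h X ρ) {φ₀ : Module.Dual k V} (hφ₀ : φ₀ ∈ fx (dualRep ρ) (UN cs h X)) (hne : φ₀ v₀ ≠ 0)

/-- the representatives of the vertices -/
local notation "g6" => ((![1, sl ww, ss ww * sl ww, sl ww * (ss ww * sl ww),
    ss ww * (sl ww * (ss ww * sl ww)), sl ww * (ss ww * (sl ww * (ss ww * sl ww)))] : Fin 6 → Y))

include H hirr hv₀ hφ₀

/-- different vertices are orthogonal -/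
theorem pair_six (hl : l ∉ Jx cs h X ρ) {a b : Fin 6} (hab : b ≠ a) : φ₀ (ρ (g6 a)⁻¹ (ρ (g6 b) v₀)) = 0 := by
  set g : Fin 6 → Y := g6 with hg
  choose w hw hx using H.rp_six
  by_contra h2
  rw [← rho_mul] at h2
  have h3 := mem_WJ_of_pair R hirr hφ₀ ((hw a).inv.mul (hw b)) hv₀ h2
  have h4 : ∀ x : Fin 2 → ℤ, rep cs h (w a)⁻¹ x l = rep cs h (w b)⁻¹ x l := by
    intro x
    have h5 := coord_of_mem_WJ (h := h) h3 (rep cs h (w b)⁻¹ x) hl
    rwa [← rep_mul_apply, mul_inv_cancel_right] at h5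
  have e1 := h4 (sr s)
  have e2 := h4 (sr l)
  rw [hx, hx, sr_self, sr_ne (Ne.symm H.ne)] at e1
  rw [hx, hx, sr_self, sr_ne H.ne] at e2
  apply hab
  clear h2 h3 h4 hx hw
  revert e1 e2
  revert a b
  decide

include hne

/-- the string of the short node through the fourth vertex -/
theorem str_four [Fintype K] (hl : l ∉ Jx cs h X ρ) (j : K →+* k) {c : ℕ} (h1 : 1 ≤ c) (h2 : c ≤ Fintype.card K - 1)
    (htor : ∀ t : Kˣ, ρ (ss (hh t)) (ρ (sl ww * (ss ww * sl ww)) v₀) = j (t : K) ^ c • ρ (sl ww * (ss ww * sl ww)) v₀) :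
    Str j (ρ.comp ss) (dualRep ρ (sl ww * (ss ww * sl ww)) φ₀) (ρ (sl ww * (ss ww * sl ww)) v₀) c := by
  refine str_of_rgd R hirr j (H.wl.mul (H.ws.mul H.wl)) (i := s) ?_ ?_ (fun t => (H.Ns.up _).2 ⟨t, rfl⟩)
    (fun t => (H.Ns.lo _).2 ⟨t, rfl⟩) H.ws hv₀ hφ₀ hne h1 h2 htor
  · intro i
    rw [mul_inv_rev, mul_inv_rev, inv_simple, inv_simple, rep_mul_apply, rep_mul_apply]
    rcases H.cases i with rfl | rfl
    · simp only [(H.rep_l _).1, (H.rep_l _).2, (H.rep_s _).1, sr_self, sr_ne (Ne.symm H.ne)]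
      norm_num
    · simp only [(H.rep_l _).1, (H.rep_l _).2, (H.rep_s _).1, (H.rep_s _).2, sr_self, sr_ne (Ne.symm H.ne)]
      norm_num
  · intro hw
    have h3 := coord_of_mem_WJ (h := h) hw (sr s) hl
    rw [mul_inv_rev, mul_inv_rev, inv_simple, inv_simple] at h3
    simp only [rep_mul_apply, (H.rep_l _).1, (H.rep_l _).2, (H.rep_s _).1, (H.rep_s _).2, sr_self,
      sr_ne (Ne.symm H.ne)] at h3
    norm_num at h3

/-- **two strings through the vertices** -/
theorem dim_strings [Fintype K] (hl : l ∉ Jx cs h X ρ) (j : K →+* k) {c : ℕ} (h1 : 1 ≤ c) (h2 : c ≤ Fintype.card K - 1)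
    (ht1 : ∀ t : Kˣ, ρ (ss (hh t)) (ρ (sl ww) v₀) = j (t : K) ^ c • ρ (sl ww) v₀)
    (ht4 : ∀ t : Kˣ, ρ (ss (hh t)) (ρ (sl ww * (ss ww * sl ww)) v₀) = j (t : K) ^ c • ρ (sl ww * (ss ww * sl ww)) v₀) :
    2 * (SS p c).card ≤ Module.finrank k V := by
  have H₁ := H.str_sl hirr hv₀ hφ₀ hne hl j h1 h2 ht1
  have H₂ := str_four H hirr hv₀ hφ₀ hne hl j h1 h2 ht4
  refine dim_two p H₁ H₂ ?_ ?_ ?_ ?_
  · rw [dualRep_apply]
    exact pair_six H hirr hv₀ hφ₀ hl (a := 1) (b := 3) (by decide)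
  · rw [dualRep_apply, MonoidHom.comp_apply, ← rho_mul ρ (ss ww)]
    exact pair_six H hirr hv₀ hφ₀ hl (a := 1) (b := 4) (by decide)
  · rw [dualRep_apply]
    exact pair_six H hirr hv₀ hφ₀ hl (a := 3) (b := 1) (by decide)
  · rw [dualRep_apply, MonoidHom.comp_apply, ← rho_mul ρ (ss ww)]
    exact pair_six H hirr hv₀ hφ₀ hl (a := 3) (b := 2) (by decide)

end hx

/-! ### `³D₄` -/

section d4

open Cfsg Cfsg.Geo
open Cfsg.Agent.H911 (lin)
open Cfsg.Lie Cfsg.Agent.ChevalleyStructure Cfsg.Agent.ChevalleyStructure.CoxeterGeomTypes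
open Cfsg.Agent.Nodes.RGDTwD4 (isCartan)
open Cfsg.Agent.Nodes.RGDFoldSL (Fx mem_Fx)
open Cfsg.Agent.H744.Ppd.D4

universe u

/-- the Coxeter system -/
local notation "cs4" => CoxeterMatrix.toCoxeterSystem CoxeterMatrix.G₂

variable {F : Type u} [Field F] [Finite F] {ι : Type} [Fintype ι] [DecidableEq ι] [Nonempty ι]
  {P : Subgroup (Matrix.GeneralLinearGroup ι F)}
  (p : ℕ) [hp : Fact p.Prime] [CharP F p] {K : Type} [Field K] [Fintype K] [CharP K p] {q : ℕ} {φ : K →+* K}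
  (hK : Fintype.card K = q ^ 3) (hφ : ∀ x, φ x = x ^ q)
  {θ : ↥(twistedD4 K q) →* Matrix.GeneralLinearGroup ι F} (hθ : θ.range = P)
  (hP : ActsAbsolutelyIrreducibly (matrixSet P))

/-- the root groups -/
local notation "Jn" => Jx cs4 isCartan (Nodes.RGDTwD4.X φ q) (lin (acRep θ))

include p hK hφ hθ hP

/-- **the long node alone** -/
theorem long_two (hq : 1 < q) (h1 : (1 : Fin 2) ∈ Jn) (h0 : (0 : Fin 2) ∉ Jn) {a j : ℕ} (hj : j ≠ 0)
    (hF : Nat.card F = p ^ a) (hE : q = p ^ (a * j)) : 2 * 8 ^ j ≤ Fintype.card ι := by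
  have : Finite CoxeterMatrix.G₂.Group := Cfsg.Agent.H249.PPTwD4.finiteW cs4
  have i1 := Fintype.ofFinite (Fx φ 1)
  have i3 := Fintype.ofFinite (Fx φ 3)
  have c1 : Fintype.card (Fx φ 1) = q := by rw [← Nat.card_eq_fintype_card]; exact card_Fx1 hq hK hφ
  have c3 : Fintype.card (Fx φ 3) = q ^ 3 := by rw [← Nat.card_eq_fintype_card]; exact card_Fx3 hK hφ
  have hchar : CharP (AlgebraicClosure F) p := charP_of_injective_algebraMap (algebraMap F _).injective p
  have R := Nodes.RGDTwD4.rgd (K := K) cs4 hK hφ p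
  have H := hx_d4 hK hφ cs4 p
  have hirr := ac_irr R (GG4 hK hφ) Cfsg.Agent.H249.PPTwD4.T_comm hθ hP
  have hfin : Module.finrank (AlgebraicClosure F) (ι → AlgebraicClosure F) = Fintype.card ι :=
    Module.finrank_fintype_fun_eq_card _
  obtain ⟨c, hc, hc0, χ, hχ⟩ := exists_chi R hirr Cfsg.Agent.H249.PPTwD4.T_comm
  obtain ⟨ι₀⟩ := Cfsg.Agent.H875.Psl2.exists_emb F (Fx φ 3) p
  have hgcd : Nat.gcd a (a * j) = a := Nat.gcd_eq_left (Dvd.intro j rfl)
  obtain ⟨r₀, hr0, hrlt, hr, -⟩ := edge_data R (GG4 hK hφ) Cfsg.Agent.H249.PPTwD4.T_comm hθ hP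
    (nd_sl hK hφ cs4 p) h0 hF (by rw [card_Fx1 hq hK hφ]; exact hE) (s := j) (by rw [hgcd, mul_comm])
    (ι₀.comp (incl φ)) hc hc0 hχ
  rw [hgcd] at hrlt hr
  obtain ⟨φ₀, hφ₀, hne⟩ := exists_pair_D R hirr hc hc0
  have hQ1 : 1 ≤ p ^ a := Nat.one_le_pow _ _ hp.out.pos
  have hqj : q = (p ^ a) ^ j := by rw [hE, pow_mul]
  set b : ℕ := r₀ * ∑ l ∈ Finset.range j, (p ^ a) ^ l with hb
  set cS : ℕ := r₀ * ∑ l ∈ Finset.range (3 * j), (p ^ a) ^ l with hcS
  have hbc : cS = (1 + q + q ^ 2) * b := by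
    rw [hcS, hb, ← geom_split, hqj]
    ring
  have htor0 : ∀ t : (Fx φ 1)ˣ, lin (acRep θ) (sl hK hφ (hh t)) c = ι₀ (incl φ (t : Fx φ 1)) ^ b • c := fun t => by
    rw [hχ _ ((nd_sl hK hφ cs4 p).tor t), hr t]
    rfl
  have h3 : IsOcc (lin (acRep θ)) (ss hK hφ) (sl hK hφ) (incl φ) ι₀ c 0 (b : ℤ) :=
    ⟨fun t => by rw [fix_J H.Ns h1 hc, zpow_zero, one_smul], fun t => by rw [htor0, zpow_natCast]⟩
  have h4 := h3.refl_l H.two
  have h5 := (h4.refl_s H.two).refl_l H.two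
  have hcS1 : 1 ≤ cS := by
    rw [hbc]
    have hb1 : b ≠ 0 := by
      rw [hb]
      refine Nat.mul_ne_zero hr0 ?_
      have h5 : 1 ≤ ∑ l ∈ Finset.range j, (p ^ a) ^ l := by
        rw [← pow_zero (p ^ a)]
        exact Finset.single_le_sum (f := fun l => (p ^ a) ^ l) (fun _ _ => Nat.zero_le _)
          (Finset.mem_range.2 (Nat.pos_of_ne_zero hj))
      omega
    exact Nat.one_le_iff_ne_zero.2 (Nat.mul_ne_zero (by omega) hb1)
  have hcS2 : cS ≤ Fintype.card (Fx φ 3) - 1 := by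
    rw [c3, hqj, ← pow_mul, mul_comm j 3]
    exact geom_bd hQ1 hrlt
  have hc3' : ((Fintype.card (Fx φ 3) - 1 : ℕ) : ℤ) = (q : ℤ) ^ 3 - 1 := by
    rw [c3, Nat.cast_sub (Nat.one_le_pow _ _ (by omega))]
    push_cast
    ring
  have h6 := h5.congr (a' := (cS : ℤ)) (b' := -(-(b : ℤ) + (0 + ((1 + q + q ^ 2 : ℕ) : ℤ) * b))) (by
    rw [hc3', hbc]
    push_cast
    exact ⟨-((q : ℤ) + 2) * b, by ring⟩) (by
    rw [sub_self]
    exact dvd_zero _)
  have S := dim_strings H hirr hc hφ₀ hne h0 ι₀ hcS1 hcS2 (fun t => by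
    rw [h4.1 t]
    congr 1
    rw [← zpow_natCast, hbc]
    congr 1
    push_cast
    ring) (fun t => by
    rw [rho_mul, rho_mul, h6.1 t, zpow_natCast])
  rw [card_SS_geom hrlt, hfin] at S
  have h7 := two_le_card_SS (p := p) hr0
  have h8 := Nat.pow_le_pow_left h7 (3 * j)
  rw [pow_mul] at h8
  norm_num at h8
  omega

end d4

/-! ### orders -/

section orders

theorem conj_inj {S : Type*} [Group S] (hs : IsSimpleGroup S) (hna : ¬ IsMulCommutative S) :
    Function.Injective (MulAut.conj : S →* MulAut S) := by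
  rw [← MonoidHom.ker_eq_bot_iff]
  rcases (inferInstance : (MonoidHom.ker (MulAut.conj : S →* MulAut S)).Normal).eq_bot_or_eq_top with h | h
  · exact h
  · exfalso
    apply hna
    refine ⟨⟨fun a b => ?_⟩⟩
    have h1 : a ∈ MonoidHom.ker (MulAut.conj : S →* MulAut S) := h ▸ Subgroup.mem_top a
    have h2 := DFunLike.congr_fun (MonoidHom.mem_ker.1 h1) b
    rw [MulAut.conj_apply, MulAut.one_apply] at h2
    exact mul_inv_eq_iff_eq_mul.1 h2

theorem two_mul_le (f : ℕ) (hf : 1 ≤ f) : 2 * f ≤ 3 ^ f := by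
  induction f, hf using Nat.le_induction with
  | base => norm_num
  | succ f hf ih => rw [pow_succ]; omega

theorem three_mul_le (f : ℕ) (hf : 1 ≤ f) : 3 * f ≤ 4 ^ f := by
  induction f, hf using Nat.le_induction with
  | base => norm_num
  | succ f hf ih => rw [pow_succ]; omega

theorem g2_le (q : ℕ) : q ^ 6 * (q ^ 2 - 1) * (q ^ 6 - 1) ≤ q ^ 14 := by
  calc q ^ 6 * (q ^ 2 - 1) * (q ^ 6 - 1) ≤ q ^ 6 * q ^ 2 * q ^ 6 :=
        Nat.mul_le_mul (Nat.mul_le_mul_left _ (Nat.sub_le _ _)) (Nat.sub_le _ _)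
    _ = q ^ 14 := by ring

theorem d4_le (q : ℕ) (hq : 1 ≤ q) : q ^ 12 * (q ^ 2 - 1) * (q ^ 6 - 1) * (q ^ 8 + q ^ 4 + 1) ≤ q ^ 28 := by
  obtain ⟨y, hy⟩ : ∃ y, q ^ 2 = y + 1 := ⟨q ^ 2 - 1, by have := Nat.one_le_pow 2 q hq; omega⟩
  have h1 : (q ^ 2 - 1) * (q ^ 8 + q ^ 4 + 1) ≤ q ^ 10 := by
    have e8 : q ^ 8 = (y + 1) ^ 4 := by rw [← hy, ← pow_mul]
    have e4 : q ^ 4 = (y + 1) ^ 2 := by rw [← hy, ← pow_mul]
    have e10 : q ^ 10 = (y + 1) ^ 5 := by rw [← hy, ← pow_mul]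
    rw [hy, e8, e4, e10, Nat.add_sub_cancel]
    have e : (y + 1) ^ 5 = y * ((y + 1) ^ 4 + (y + 1) ^ 2 + 1) + (y ^ 4 + 3 * y ^ 3 + 4 * y ^ 2 + 2 * y + 1) := by ring
    rw [e]
    exact Nat.le_add_right _ _
  calc q ^ 12 * (q ^ 2 - 1) * (q ^ 6 - 1) * (q ^ 8 + q ^ 4 + 1)
      = q ^ 12 * (q ^ 6 - 1) * ((q ^ 2 - 1) * (q ^ 8 + q ^ 4 + 1)) := by ring
    _ ≤ q ^ 12 * q ^ 6 * q ^ 10 := Nat.mul_le_mul (Nat.mul_le_mul_left _ (Nat.sub_le _ _)) h1
    _ = q ^ 28 := by ring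

/-- the exponents -/
theorem expo {x n N m : ℕ} (hx : 2 ≤ x) (h1 : x ^ n ≤ 8 * N) (h2 : N ≤ x ^ m) : n ≤ m + 3 := by
  have h3 : x ^ n ≤ x ^ (m + 3) := by
    refine h1.trans ?_
    rw [pow_add, mul_comm]
    refine Nat.mul_le_mul h2 ?_
    calc 8 = 2 ^ 3 := by norm_num
      _ ≤ x ^ 3 := Nat.pow_le_pow_left hx 3
  exact (Nat.pow_le_pow_iff_right (by omega)).1 h3

theorem half {n c N : ℕ} (hc : c ≤ n - 1) (h : n * (n - 1) / 2 ≤ N) : n * c ≤ 2 * N + 1 := by
  have h1 : n * c ≤ n * (n - 1) := Nat.mul_le_mul_left _ hc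
  omega

end orders

/-! ### the rows -/

section rows

open Cfsg Cfsg.Geo
open Cfsg.Agent.H419.EP Cfsg.Agent.H915.LD Cfsg.Agent.H100.Ppd
open scoped MatrixGroups

variable {Q : Type} [Group Q] [Finite Q] {A : Subgroup Q} {Γ : Subgroup (MulAut Q)} {ι : Type} [Fintype ι]
    [DecidableEq ι] {F : Type} [Field F] [Fintype F] {S P : Subgroup (GL ι F)}

theorem card_A_le (b : Big A Γ S P) {L : Type} [Group L] [Finite L] (e : socle P ≃* L) :
    Nat.card A ≤ Nat.card L * Nat.card (Cfsg.Out L) := by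
  have hs : IsSimpleGroup L := by
    haveI := b.core.simple
    exact e.symm.isSimpleGroup
  have hna : ¬ IsMulCommutative L := fun h => b.core.nonabelian ⟨⟨fun x y => by
    apply e.injective
    rw [map_mul, map_mul]
    exact h.is_comm.comm _ _⟩⟩
  rw [← Cfsg.Agent.H107.PglExc.card_mulAut (conj_inj hs hna)]
  exact (b.hasSoc' e).card_le

theorem nonempty_of_big (b : Big A Γ S P) : Nonempty ι := Fintype.card_pos_iff.1 (by have := b.thirteen; omega)

open Cfsg.Agent.H927.G2 (GG2 fr_g2) in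
/-- **Socle `G₂(K)`, own characteristic.** -/
theorem not_g2 (b : Big A Γ S P) (hUB : Nat.card Q ≤ Nat.card A ^ 4) {K : Type} [Field K] [Fintype K]
    (h3 : 3 ≤ Fintype.card K) (hc : ringChar F = ringChar K) (e : Nonempty (socle P ≃* Lie.chevG2.group K)) :
    False := by
  obtain ⟨e⟩ := e
  have hC : Core P := core_of_residual b.core
  obtain ⟨p, hpF⟩ : ∃ p, p = ringChar F := ⟨_, rfl⟩
  have hcF : CharP F p := hpF ▸ ringChar.charP F
  have hcK : CharP K p := (hpF.trans hc) ▸ ringChar.charP K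
  have hp : Fact p.Prime := ⟨CharP.char_is_prime F p⟩
  have hne : Nonempty ι := nonempty_of_big b
  have hn := b.thirteen
  obtain ⟨f⟩ := Cfsg.Agent.H48.DsChev.g2_equiv p hC h3 e
  have hfr := fr_g2 p hC f
  obtain ⟨aK, -, haK⟩ := FiniteField.card K p
  have hcK : Nat.card K = p ^ (aK : ℕ) := by rw [Nat.card_eq_fintype_card, haK]
  obtain ⟨j, hj1, hj⟩ := card_pow_eq p aK.ne_zero (fun x => pow_eq_of_no_subfield hC.absIrred hC.no_subfield p aK (fun g hg => by
    rw [← hcK]; exact hfr g hg) x)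
  have hKF : Nat.card K = Nat.card F ^ j := by rw [hcK, hj]
  have h2 : 2 ≤ Fintype.card ι := by omega
  have hφ : (P.subtype.comp f.symm.toMonoidHom).range = P := by
    rw [MonoidHom.range_comp, MonoidHom.range_eq_top.2 f.symm.surjective, ← MonoidHom.range_eq_map,
      Subgroup.range_subtype]
  have h4 := Cfsg.Agent.H744.Ppd.G2.ge_pow p hφ hC.absIrred h2 hKF
  -- the order of `Aut L`
  have hfin : Finite ↥(Lie.chevG2.group K) := by
    haveI : Finite P := inferInstance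
    exact Finite.of_equiv _ f.toEquiv
  have hA := card_A_le b e
  rw [Cfsg.Agent.S1059.result rfl, Cfsg.Agent.S2121.result p aK haK (by rw [← haK]; exact h3)] at hA
  have hout : (if p = 3 then 2 * (aK : ℕ) else (aK : ℕ)) ≤ Fintype.card K := by
    rw [haK]
    by_cases hp3 : p = 3
    · rw [if_pos hp3, hp3]
      exact two_mul_le _ aK.pos
    · rw [if_neg hp3]
      exact (Nat.lt_pow_self hp.out.one_lt).le
  have hA15 : Nat.card A ≤ Fintype.card K ^ 15 := by
    refine hA.trans ?_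
    calc _ ≤ Fintype.card K ^ 14 * Fintype.card K := Nat.mul_le_mul (g2_le _) hout
      _ = _ := (pow_succ _ _).symm
  have hQ : Nat.card Q ≤ Fintype.card F ^ (60 * j) := by
    refine hUB.trans ((Nat.pow_le_pow_left hA15 4).trans (le_of_eq ?_))
    rw [← Nat.card_eq_fintype_card, hKF, Nat.card_eq_fintype_card, ← pow_mul, ← pow_mul]
    congr 1
    ring
  have h5 := expo b.two_le b.ord hQ
  rcases (show j = 1 ∨ 2 ≤ j by omega) with rfl | hj2
  · have h6 := half (c := 12) (by omega) h5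
    omega
  · have h7 : ∀ j : ℕ, 2 ≤ j → 2 * j ≤ 2 ^ j := by
      intro j hj
      induction j, hj using Nat.le_induction with
      | base => norm_num
      | succ j hj ih => rw [pow_succ]; omega
    have h8 := h7 j hj2
    have h6 := half (c := 17) (by omega) h5
    omega

theorem pow8' (j : ℕ) (hj : 1 ≤ j) : 8 * j ≤ 8 ^ j := by
  induction j, hj using Nat.le_induction with
  | base => norm_num
  | succ j hj ih => rw [pow_succ]; omega

open Cfsg.Agent.H744.Ppd.D4 in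
/-- **Socle `³D₄(q₀)`, own characteristic.** -/
theorem not_3d4 (b : Big A Γ S P) (hUB : Nat.card Q ≤ Nat.card A ^ 4) {K : Type} [Field K] [Fintype K] {q₀ : ℕ}
    (hq : IsPrimePow q₀) (hK : Fintype.card K = q₀ ^ 3) (hc : ringChar F = ringChar K)
    (e : Nonempty (socle P ≃* Lie.twistedD4 K q₀)) : False := by
  obtain ⟨e⟩ := e
  have hC : Core P := core_of_residual b.core
  obtain ⟨p, hpF⟩ : ∃ p, p = ringChar F := ⟨_, rfl⟩
  have hcF : CharP F p := hpF ▸ ringChar.charP F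
  have hcK : CharP K p := (hpF.trans hc) ▸ ringChar.charP K
  have hp : Fact p.Prime := ⟨CharP.char_is_prime F p⟩
  have hne : Nonempty ι := nonempty_of_big b
  have hn := b.thirteen
  obtain ⟨f⟩ := Cfsg.Agent.H48.DsChev.d4_equiv hC hq hK e
  obtain ⟨φ, hφ⟩ := Cfsg.Agent.ChevalleyStructure.D4Fixed.exists_frob hq hK
  have hq1 : 1 < q₀ := hq.one_lt
  obtain ⟨aK, -, haK⟩ := FiniteField.card K p
  have h2 : 2 ≤ Fintype.card ι := by omega
  have hθ : (P.subtype.comp f.symm.toMonoidHom).range = P := by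
    rw [MonoidHom.range_comp, MonoidHom.range_eq_top.2 f.symm.surjective, ← MonoidHom.range_eq_map,
      Subgroup.range_subtype]
  have : Finite CoxeterMatrix.G₂.Group := Cfsg.Agent.H249.PPTwD4.finiteW CoxeterMatrix.G₂.toCoxeterSystem
  obtain ⟨j, hj1, hj⟩ := card_pow_eq p aK.ne_zero (fun x => pow_eq_of_no_subfield hC.absIrred hC.no_subfield p aK
    (fun g hg => trace_pow (Nodes.RGDTwD4.rgd CoxeterMatrix.G₂.toCoxeterSystem hK hφ p) (GG4 hK hφ)
      Cfsg.Agent.H249.PPTwD4.T_comm hθ hC.absIrred (fun t ht => by rw [← haK]; exact T_pow t ht) hg) x)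
  have hjq : Nat.card F ^ j = q₀ ^ 3 := by rw [hj, ← haK, hK]
  obtain ⟨a, ha0, ha⟩ : ∃ a : ℕ, a ≠ 0 ∧ Nat.card F = p ^ a := by
    have := Fintype.ofFinite F
    obtain ⟨a, -, ha⟩ := FiniteField.card F p
    exact ⟨a, a.ne_zero, by rw [Nat.card_eq_fintype_card, ha]⟩
  obtain ⟨g, -, hgq⟩ := (Nat.dvd_prime_pow hp.out).1 (show q₀ ∣ p ^ (aK : ℕ) by
    rw [← haK, hK]; exact dvd_pow_self q₀ (by norm_num))
  have hg1 : 1 ≤ g := by
    rcases Nat.eq_zero_or_pos g with h0 | h0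
    · rw [h0, pow_zero] at hgq
      omega
    · exact h0
  have hag : a * j = 3 * g := by
    have h3 : p ^ (a * j) = p ^ (3 * g) := by
      rw [pow_mul, ← ha, hjq, hgq, ← pow_mul, mul_comm]
    exact Nat.pow_right_injective hp.out.two_le h3
  -- the order of `Aut L`
  have hfin : Finite ↥(Lie.twistedD4 K q₀) := by
    haveI : Finite P := inferInstance
    exact Finite.of_equiv _ f.toEquiv
  have hA := card_A_le b e
  have hout : Nat.card (Cfsg.Out ↥(Lie.twistedD4 K q₀)) = 3 * g := by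
    have h1 := Cfsg.Agent.S2129.result (K := K) p g (by rw [hK, hgq, ← pow_mul, mul_comm]) hg1
    rwa [← hgq] at h1
  rw [Cfsg.Agent.S1067.result hq hK, hout] at hA
  have hA30 : Nat.card A ≤ q₀ ^ 30 := by
    refine hA.trans ?_
    have h1 : 3 * g ≤ q₀ ^ 2 := by
      refine (three_mul_le g hg1).trans ?_
      rw [hgq, ← pow_mul, mul_comm g 2, pow_mul]
      exact Nat.pow_le_pow_left (by have := Nat.pow_le_pow_left hp.out.two_le 2; omega) g
    calc _ ≤ q₀ ^ 28 * q₀ ^ 2 := Nat.mul_le_mul (d4_le _ (by omega)) h1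
      _ = _ := (pow_add _ _ _).symm
  have hQ : Nat.card Q ≤ Fintype.card F ^ (40 * j) := by
    refine hUB.trans ((Nat.pow_le_pow_left hA30 4).trans (le_of_eq ?_))
    rw [← pow_mul, show 30 * 4 = 3 * 40 by norm_num, pow_mul, ← hjq, Nat.card_eq_fintype_card, ← pow_mul]
    congr 1
    ring
  have hexp := expo b.two_le b.ord hQ
  have hnode := exists_node p hK hφ hθ hC.absIrred h2
  by_cases h3 : 3 ∣ j
  · obtain ⟨j', rfl⟩ := h3
    have hj' : 1 ≤ j' := by omega
    have hg' : g = a * j' := by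
      have : a * (3 * j') = 3 * (a * j') := by ring
      omega
    rcases hnode with h1 | ⟨h1, h0⟩
    · have h4 := short_ge p hK hφ hθ hC.absIrred h1 ha (f := a * (3 * j')) (by rw [hag, hgq, ← pow_mul, mul_comm])
        (s := 3 * j') (by rw [Nat.gcd_eq_left (Dvd.intro (3 * j') rfl), mul_comm])
      rw [pow_mul] at h4
      have h5 := pow8' j' hj'
      norm_num at h4
      have h6 := half (c := 41) (by omega) hexp
      omega
    · have h4 := long_two p hK hφ hθ hC.absIrred hq1 h1 h0 (j := j') (by omega) ha (by rw [hgq, hg'])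
      obtain ⟨-, h5⟩ := long_ge' p hK hφ hθ hC.absIrred hq1 h1 h0 ha0 (j := j') (by omega) ha (by rw [hgq, hg'])
      rcases hj'.eq_or_lt with h6 | h6
      · rcases (show Nat.card F = 2 ∨ 3 ≤ Nat.card F by
          have := b.two_le; rw [Nat.card_eq_fintype_card]; omega) with h7 | h7
        · -- `³D₄(2)` over the prime field
          have hq2 : q₀ = 2 := by
            have h8 : q₀ ^ 3 = 2 ^ 3 := by rw [← hjq, h7, ← h6]
            exact Nat.pow_left_injective (by norm_num) h8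
          have hg2 : g = 1 := by
            have h8 : p ^ g = 2 := hgq ▸ hq2
            have h9 : p ^ 1 ≤ p ^ g := Nat.pow_le_pow_right hp.out.pos hg1
            have h10 : p = 2 := le_antisymm (by rw [pow_one] at h9; omega) hp.out.two_le
            rw [h10] at h8
            exact Nat.pow_right_injective (le_refl 2) (h8.trans (pow_one 2).symm)
          rw [hq2, hg2] at hA
          have hA2 : Nat.card A ≤ 634023936 := by norm_num at hA; exact hA
          have hord := b.ord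
          rw [← Nat.card_eq_fintype_card (α := F), h7] at hord
          rw [← h6] at h4
          have h8 : 2 ^ 120 ≤ 2 ^ (Fintype.card ι * (Fintype.card ι - 1) / 2) := by
            refine Nat.pow_le_pow_right (by norm_num) ?_
            have h9 : 16 * 15 ≤ Fintype.card ι * (Fintype.card ι - 1) := Nat.mul_le_mul (by omega) (by omega)
            omega
          have h10 : 8 * Nat.card Q ≤ 8 * 634023936 ^ 4 :=
            Nat.mul_le_mul_left _ (hUB.trans (Nat.pow_le_pow_left hA2 4))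
          have h11 := h8.trans (hord.trans h10)
          norm_num at h11
        · have h8 := h5 h6.symm h7
          have h9 := half (c := 23) (by omega) hexp
          omega
      · have h7 := pow8' (j' - 1) (by omega)
        have h8 : 8 ^ j' = 8 ^ (j' - 1) * 8 := by
          rw [← pow_succ]
          congr 1
          omega
        have h9 := half (c := 100) (by omega) hexp
        omega
  · have h4 : 3 ∣ a := by
      have h5 : 3 ∣ a * j := ⟨g, hag⟩
      exact (Nat.prime_three.dvd_mul.1 h5).resolve_right h3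
    obtain ⟨a', rfl⟩ := h4
    have hg' : g = a' * j := by
      have : 3 * a' * j = 3 * (a' * j) := by ring
      omega
    rcases (show j = 1 ∨ 2 ≤ j by omega) with rfl | hj2
    · have h6 := half (c := 12) (by omega) hexp
      omega
    have h5 : 6 * 2 ^ j ≤ Fintype.card ι + 6 := by
      rcases hnode with h1 | ⟨-, h0⟩
      · exact short_ge p hK hφ hθ hC.absIrred h1 ha (f := 3 * a' * j) (by rw [hag, hgq, ← pow_mul, mul_comm])
          (s := j) (by rw [Nat.gcd_eq_left (Dvd.intro j rfl), mul_comm])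
      · refine long_ge p hK hφ hθ hC.absIrred hq1 h0 ha (f := a' * j) (by rw [hgq, hg']) (s := j) ?_
        have h6 : Nat.gcd (3 * a') (a' * j) = a' := by
          rw [mul_comm 3 a', Nat.gcd_mul_left, show Nat.gcd 3 j = 1 from (Nat.Prime.coprime_iff_not_dvd Nat.prime_three).2 h3, mul_one]
        rw [h6, mul_comm]
    have h6 := pow2 j hj2
    have h7 := half (c := 12) (by omega) hexp
    omega

end rows

end Cfsg.Agent.H241.Own
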