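import Cfsg.Agent.H12.EP.Own
import Cfsg.Agent.H12.EP.GalTwo
import Cfsg.Agent.H241.Own.G2D4
import Cfsg.Agent.KFacts.RgdFiltTwAll
import Cfsg.Agent.KFacts.RgdFiltChev
import Cfsg.Agent.S1062
import Cfsg.Agent.S1063
import Cfsg.Agent.S1064
import Cfsg.Agent.S1065
import Cfsg.Agent.S1066
import Cfsg.Agent.S2122
import Cfsg.Agent.S2123
import Cfsg.Agent.S2124
import Cfsg.Agent.S2125
import Cfsg.Agent.S2130

/-!
# S3499: the order bound for the exceptional socles over the field with two elements (helper241)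

`ub_F4`, `ub_E6`, `ub_E7`, `ub_E8`, `ub_2E6`, `ub_3D4` : `10000 |Q| ≤ 14 |A| ^ 5` and `|A| ≤ |Aut L|` (a number).
-/

set_option autoImplicit false
set_option linter.unusedSectionVars false
set_option linter.style.haveILetI false

namespace Cfsg.Agent.H241.Own

open Cfsg Cfsg.Geo
open Cfsg.Agent.H419.EP Cfsg.Agent.H59.EP Cfsg.Agent.H12.EP.BT
open Cfsg.Agent.KFacts.RgdFilt
open scoped MatrixGroups

variable {Q : Type} [Group Q] [Finite Q] {A : Subgroup Q} {Γ : Subgroup (MulAut Q)} {ι : Type} [Fintype ι]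
    [DecidableEq ι] {F : Type} [Field F] [Fintype F] {S P : Subgroup (GL ι F)}

theorem simple_of (b : Big A Γ S P) {L : Type} [Group L] (e : socle P ≃* L) :
    IsSimpleGroup L ∧ ¬ ∀ x y : L, x * y = y * x := by
  refine ⟨?_, fun h => b.core.nonabelian ⟨⟨fun x y => ?_⟩⟩⟩
  · haveI := b.core.simple
    exact e.symm.isSimpleGroup
  · apply e.injective
    rw [map_mul, map_mul]
    exact h _ _

/-- **the order bound over the field with two elements** -/
theorem ub_two (hg : TwoGen.{0}) (b : Big A Γ S P) {L : Type} [Group L] (e : socle P ≃* L) (hF : HasFilt 2 L)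
    {M o N k : ℕ} (hM : Nat.card L = M) (ho : Nat.card (Cfsg.Out L) = o) (h0 : M ≠ 0) (h4 : ¬ 4 ∣ o) (hk : k ≠ 0)
    (hd : M * o ∣ 2 ^ N * k) (hgal : galSum k ≤ M) (h60 : M * o < 60 ^ 60) :
    10000 * Nat.card Q ≤ Nat.card A ^ 5 * 14 ∧ Nat.card A ≤ M * o := by
  have hfin : Finite L := Nat.finite_of_card_ne_zero (by rw [hM]; exact h0)
  obtain ⟨hL, hLn⟩ := simple_of b e
  have hsoc := b.hasSoc' e
  have hna : ¬ IsMulCommutative L := fun h => hLn fun x y => h.is_comm.comm x y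
  have hA1 : Nat.card A ∣ M * o := by
    obtain ⟨f, hf⟩ := hsoc.exists_hom
    rw [← hM, ← ho, ← Cfsg.Agent.H107.PglExc.card_mulAut (conj_inj hL hna)]
    exact Subgroup.card_dvd_of_injective f hf
  have hA2 : M ∣ Nat.card A := hM ▸ hsoc.card_dvd
  have ho0 : o ≠ 0 := fun h => h4 (h ▸ dvd_zero 4)
  have hAle : Nat.card A ≤ M * o := Nat.le_of_dvd (Nat.pos_of_ne_zero (Nat.mul_ne_zero h0 ho0)) hA1
  have hMA : M ≤ Nat.card A := Nat.le_of_dvd Nat.card_pos hA2
  have : Fact (Nat.Prime 2) := ⟨Nat.prime_two⟩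
  refine ⟨?_, hAle⟩
  refine card_own_one (j := 1) b.simple b.ept hg hsoc hL hLn hF (p := 2) ?_ le_rfl ?_ (clsLe_gal 2) ?_
  · intro h
    apply h4
    have h1 : M * 4 ∣ M * o := by
      rw [hM] at h
      exact (by rw [mul_comm]; exact h : M * 4 ∣ Nat.card A).trans hA1
    exact Nat.dvd_of_mul_dvd_mul_left (Nat.pos_of_ne_zero h0) h1
  · rw [pow_one]
    omega
  · exact ((galSumNe_le hk (hA1.trans hd)).trans hgal).trans hMA

variable {K : Type} [Field K] [Fintype K]

theorem charP_two {n : ℕ} (hK : Fintype.card K = 2 ^ n) : CharP K 2 := by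
  obtain ⟨p, hp⟩ := CharP.exists K
  have hpp : p.Prime := CharP.char_is_prime K p
  obtain ⟨k, -, hk⟩ := FiniteField.card K p
  have h1 : p ∣ 2 ^ n := by
    rw [← hK, hk]
    exact dvd_pow_self p k.ne_zero
  have h2 := (Nat.prime_dvd_prime_iff_eq hpp Nat.prime_two).1 (hpp.dvd_of_dvd_pow h1)
  exact h2 ▸ hp

theorem ub_F4 (hg : TwoGen.{0}) (b : Big A Γ S P) (hK : Fintype.card K = 2)
    (e : socle P ≃* ↥(Lie.chevF4.group K)) :
    10000 * Nat.card Q ≤ Nat.card A ^ 5 * 14 ∧ Nat.card A ≤ 3311126603366400 * 2 := by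
  have : Fact (Nat.Prime 2) := ⟨Nat.prime_two⟩
  have hc : CharP K 2 := charP_two (n := 1) (by rw [hK, pow_one])
  refine ub_two hg b e (Cfsg.Agent.KFacts.RgdFiltChev.hasFilt_F4 K 2) (N := 25) (k := 3 ^ 6 * 5 ^ 2 * 7 ^ 2 * 13 * 17) ?_ ?_ (by norm_num)
    (by norm_num) (by norm_num) (by norm_num) ?_ (by norm_num)
  · rw [S1062.result hK]
    norm_num
  · rw [S2122.result 2 1 (by rw [hK, pow_one])]
    norm_num
  · exact galSum_of_list [(3, 6), (5, 2), (7, 2), (13, 1), (17, 1)] (by intro x hx; fin_cases hx <;> norm_num)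
      (by decide) (by norm_num) (by decide +kernel)

theorem ub_E6 (hg : TwoGen.{0}) (b : Big A Γ S P) (hK : Fintype.card K = 2)
    (e : socle P ≃* ↥(Lie.chevE6.group K)) :
    10000 * Nat.card Q ≤ Nat.card A ^ 5 * 14 ∧ Nat.card A ≤ 214841575522005575270400 * 2 := by
  have : Fact (Nat.Prime 2) := ⟨Nat.prime_two⟩
  have hc : CharP K 2 := charP_two (n := 1) (by rw [hK, pow_one])
  refine ub_two hg b e (Cfsg.Agent.KFacts.RgdFiltChev.hasFilt_E6 K 2) (N := 37) (k := 3 ^ 6 * 5 ^ 2 * 7 ^ 3 * 13 * 17 * 31 * 73) ?_ ?_ (by norm_num)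
    (by norm_num) (by norm_num) (by norm_num) ?_ (by norm_num)
  · have h1 := S1063.result (F := K) hK
    norm_num at h1
    exact h1
  · rw [S2123.result 2 1 (by rw [hK, pow_one])]
    norm_num
  · exact galSum_of_list [(3, 6), (5, 2), (7, 3), (13, 1), (17, 1), (31, 1), (73, 1)]
      (by intro x hx; fin_cases hx <;> norm_num) (by decide) (by norm_num) (by decide +kernel)

theorem ub_E7 (hg : TwoGen.{0}) (b : Big A Γ S P) (hK : Fintype.card K = 2)
    (e : socle P ≃* ↥(Lie.chevE7.group K)) :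
    10000 * Nat.card Q ≤ Nat.card A ^ 5 * 14 ∧ Nat.card A ≤ 7997476042075799759100487262680802918400 * 1 := by
  have : Fact (Nat.Prime 2) := ⟨Nat.prime_two⟩
  have hc : CharP K 2 := charP_two (n := 1) (by rw [hK, pow_one])
  refine ub_two hg b e (Cfsg.Agent.KFacts.RgdFiltChev.hasFilt_E7 K 2) (N := 63)
    (k := 3 ^ 11 * 5 ^ 2 * 7 ^ 3 * 11 * 13 * 17 * 19 * 31 * 43 * 73 * 127) ?_ ?_ (by norm_num)
    (by norm_num) (by norm_num) (by norm_num) ?_ (by norm_num)
  · have h1 := S1064.result (F := K) hK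
    norm_num at h1
    exact h1
  · rw [S2124.result 2 1 (by rw [hK, pow_one])]
    norm_num
  · exact galSum_of_list [(3, 11), (5, 2), (7, 3), (11, 1), (13, 1), (17, 1), (19, 1), (31, 1), (43, 1), (73, 1),
      (127, 1)] (by intro x hx; fin_cases hx <;> norm_num) (by decide) (by norm_num) (by decide +kernel)

theorem ub_E8 (hg : TwoGen.{0}) (b : Big A Γ S P) (hK : Fintype.card K = 2)
    (e : socle P ≃* ↥(Lie.chevE8.group K)) :
    10000 * Nat.card Q ≤ Nat.card A ^ 5 * 14 ∧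
      Nat.card A ≤ 337804753143634806261388190614085595079991692242467651576160959909068800000 * 1 := by
  have : Fact (Nat.Prime 2) := ⟨Nat.prime_two⟩
  have hc : CharP K 2 := charP_two (n := 1) (by rw [hK, pow_one])
  refine ub_two hg b e (Cfsg.Agent.KFacts.RgdFiltChev.hasFilt_E8 K 2) (N := 120)
    (k := 3 ^ 13 * 5 ^ 5 * 7 ^ 4 * 11 ^ 2 * 13 ^ 2 * 17 ^ 2 * 19 * 31 ^ 2 * 41 * 43 * 73 * 127 * 151 * 241 * 331)
    ?_ ?_ (by norm_num) (by norm_num) (by norm_num) (by norm_num) ?_ (by norm_num)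
  · have h1 := S1065.result (F := K) hK
    norm_num at h1
    exact h1
  · rw [S2125.result 2 1 (by rw [hK, pow_one])]
  · exact galSum_of_list [(3, 13), (5, 5), (7, 4), (11, 2), (13, 2), (17, 2), (19, 1), (31, 2), (41, 1), (43, 1),
      (73, 1), (127, 1), (151, 1), (241, 1), (331, 1)] (by intro x hx; fin_cases hx <;> norm_num) (by decide)
      (by norm_num) (by decide +kernel)

theorem ub_2E6 (hg : TwoGen.{0}) (b : Big A Γ S P) (hK : Fintype.card K = 2 ^ 2)
    (e : socle P ≃* ↥(Lie.twistedE6 K 2)) :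
    10000 * Nat.card Q ≤ Nat.card A ^ 5 * 14 ∧ Nat.card A ≤ 76532479683774853939200 * 6 := by
  have : Fact (Nat.Prime 2) := ⟨Nat.prime_two⟩
  have hc : CharP K 2 := charP_two (n := 2) hK
  have hq : IsPrimePow 2 := Nat.prime_two.isPrimePow
  refine ub_two hg b e (Cfsg.Agent.KFacts.RgdFiltTwAll.hasFilt_E6 hq hK 2) (N := 37)
    (k := 3 ^ 10 * 5 ^ 2 * 7 ^ 2 * 11 * 13 * 17 * 19) ?_ ?_ (by norm_num)
    (by norm_num) (by norm_num) (by norm_num) ?_ (by norm_num)
  · have h1 := S1066.result hq hK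
    norm_num at h1
    omega
  · have h1 := S2130.result (K := K) 2 1 (by rw [hK]) le_rfl
    norm_num at h1
    exact h1
  · exact galSum_of_list [(3, 10), (5, 2), (7, 2), (11, 1), (13, 1), (17, 1), (19, 1)]
      (by intro x hx; fin_cases hx <;> norm_num) (by decide) (by norm_num) (by decide +kernel)

theorem ub_3D4 (hg : TwoGen.{0}) (b : Big A Γ S P) (hK : Fintype.card K = 2 ^ 3)
    (e : socle P ≃* ↥(Lie.twistedD4 K 2)) :
    10000 * Nat.card Q ≤ Nat.card A ^ 5 * 14 ∧ Nat.card A ≤ 211341312 * 3 := by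
  have : Fact (Nat.Prime 2) := ⟨Nat.prime_two⟩
  have hc : CharP K 2 := charP_two (n := 3) hK
  have hq : IsPrimePow 2 := Nat.prime_two.isPrimePow
  refine ub_two hg b e (Cfsg.Agent.KFacts.RgdFiltTwAll.hasFilt_D4 hq hK 2) (N := 12)
    (k := 3 ^ 5 * 7 ^ 2 * 13) ?_ ?_ (by norm_num) (by norm_num) (by norm_num) (by norm_num) ?_ (by norm_num)
  · rw [S1067.result hq hK]
    norm_num
  · have h1 := S2129.result (K := K) 2 1 (by rw [hK]) le_rfl
    norm_num at h1
    exact h1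
  · exact galSum_of_list [(3, 5), (7, 2), (13, 1)]
      (by intro x hx; fin_cases hx <;> norm_num) (by decide) (by norm_num) (by decide +kernel)

end Cfsg.Agent.H241.Own
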